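import Mathlib

/-!
# Quotients of finite abelian groups embed (helper41)
-/

set_option autoImplicit false

namespace Cfsg.Agent.H41

/-- A quotient of a finite abelian group embeds into it (duality). -/
theorem exists_injective_of_surjective {B X : Type*} [CommGroup B] [CommGroup X] [Finite B]
    [Finite X] (f : B →* X) (hf : Function.Surjective f) :
    ∃ ι : X →* B, Function.Injective ι := by
  have hX : NeZero ((Monoid.exponent X : ℕ) : ℂ) :=
    ⟨Nat.cast_ne_zero.2 Monoid.exponent_ne_zero_of_finite⟩
  have hB : NeZero ((Monoid.exponent B : ℕ) : ℂ) :=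
    ⟨Nat.cast_ne_zero.2 Monoid.exponent_ne_zero_of_finite⟩
  obtain ⟨eX⟩ := CommGroup.monoidHom_mulEquiv_of_hasEnoughRootsOfUnity X ℂ
  obtain ⟨eB⟩ := CommGroup.monoidHom_mulEquiv_of_hasEnoughRootsOfUnity B ℂ
  refine ⟨eB.toMonoidHom.comp ((MonoidHom.compHom' f).comp eX.symm.toMonoidHom), ?_⟩
  have h1 : Function.Injective (MonoidHom.compHom' (P := ℂˣ) f) := by
    intro φ ψ h
    refine MonoidHom.ext (fun x => ?_)
    obtain ⟨b, rfl⟩ := hf x
    exact congrArg (fun g : B →* ℂˣ => g b) h
  intro x y hxy
  have h2 : (MonoidHom.compHom' (P := ℂˣ) f) (eX.symm x) = (MonoidHom.compHom' f) (eX.symm y) :=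
    eB.injective hxy
  exact eX.symm.injective (h1 h2)

/-- A group embedding into a quotient of a finite abelian group `B` is isomorphic to a subgroup
of `B`. -/
theorem exists_subgroup_mulEquiv_of_subquotient {B X Y : Type*} [CommGroup B] [CommGroup X]
    [Group Y] [Finite B] (f : B →* X) (hf : Function.Surjective f) (j : Y →* X)
    (hj : Function.Injective j) : ∃ C : Subgroup B, Nonempty (Y ≃* C) := by
  have : Finite X := Finite.of_surjective f hf
  obtain ⟨ι, hι⟩ := exists_injective_of_surjective f hf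
  exact ⟨(ι.comp j).range, ⟨MonoidHom.ofInjective (hι.comp hj)⟩⟩

end Cfsg.Agent.H41
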