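import Mathlib
import Cfsg.Agent.H41.SchurCover2
import Cfsg.Agent.H41.Duality

/-!
# Multiplier of a subgroup: transfer (helper41)
-/

set_option autoImplicit false

namespace Cfsg.Agent.H41

open Cfsg

open scoped commutatorElement

universe u v w

/-- Commutative group structure on a central subgroup. -/
@[reducible] def commGroupOfLeCenter {E : Type*} [Group E] (Z : Subgroup E)
    (hZ : Z ≤ Subgroup.center E) : CommGroup Z :=
  { (inferInstance : Group Z) with
    mul_comm := fun a b => Subtype.ext (Subgroup.mem_center_iff.1 (hZ b.2) a.1) }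

/-- The preimage of a subgroup in a central extension is a central extension of the subgroup. -/
theorem subgroupComap_ker_le_center {Γ G : Type*} [Group Γ] [Group G] (σ : Γ →* G)
    (hc : σ.ker ≤ Subgroup.center Γ) (U : Subgroup G) :
    (σ.subgroupComap U).ker ≤ Subgroup.center (U.comap σ) := by
  intro e he
  rw [Subgroup.mem_center_iff]
  intro g
  have he' : (e : Γ) ∈ σ.ker := by
    have := congrArg (Subtype.val) (MonoidHom.mem_ker.1 he)
    exact MonoidHom.mem_ker.2 this
  have := hc he'
  rw [Subgroup.mem_center_iff] at this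
  exact Subtype.ext (this g)

/-- Transfer: if `U ≤ G` has index `m`, the `m`-th powers of the multiplier of `G` embed in a
quotient `X` of the multiplier of `U`. -/
theorem exists_injective_pow_range {G : Type u} [Group G] [Finite G] (U : Subgroup G)
    {A : Type v} {B : Type w} [CommGroup A] [CommGroup B] (hA : HasSchurMultiplier G A)
    (hB : HasSchurMultiplier U B) :
    ∃ (X : Type u) (_ : CommGroup X) (f : B →* X)
      (j : (powMonoidHom U.index : A →* A).range →* X),
      Function.Surjective f ∧ Function.Injective j := by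
  obtain ⟨⟨Γ, _, _, σ, hσ, ⟨e⟩⟩, -⟩ := hA
  obtain ⟨hs, hc, hd⟩ := hσ
  have hidx : (U.comap σ).index = U.index := Subgroup.index_comap_of_surjective U hs
  have hπs : Function.Surjective (σ.subgroupComap U) :=
    σ.subgroupComap_surjective_of_surjective U hs
  have hπc := subgroupComap_ker_le_center σ hc U
  obtain ⟨f, hf⟩ := exists_surjective_ker_inf_commutator hB (σ.subgroupComap U) hπs hπc
  have hkerH : σ.ker ≤ U.comap σ := fun z hz => by
    show σ z ∈ U
    rw [MonoidHom.mem_ker.1 hz]
    exact U.one_mem
  let j₀ : (powMonoidHom U.index : A →* A).range →* (U.comap σ) :=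
    (Subgroup.inclusion hkerH).comp (e.symm.toMonoidHom.comp (Subgroup.subtype _))
  have hj₀ : ∀ y, j₀ y ∈ (σ.subgroupComap U).ker ⊓ commutator (U.comap σ) := by
    intro y
    obtain ⟨a, ha⟩ := y.2
    have hy : ((j₀ y : U.comap σ) : Γ) = ((e.symm y.1 : σ.ker) : Γ) := rfl
    refine ⟨?_, ?_⟩
    · show (σ.subgroupComap U) (j₀ y) = 1
      apply Subtype.ext
      show σ ((j₀ y : U.comap σ) : Γ) = 1
      rw [hy]
      exact MonoidHom.mem_ker.1 (e.symm y.1).2
    · have h1 : ((e.symm y.1 : σ.ker) : Γ) =
          ((e.symm a : σ.ker) : Γ) ^ (U.comap σ).index := by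
        rw [hidx, ← ha]
        show ((e.symm (a ^ U.index) : σ.ker) : Γ) = _
        rw [map_pow]
        rfl
      have h2 : ((e.symm a : σ.ker) : Γ) ^ (U.comap σ).index ∈ ⁅U.comap σ, U.comap σ⁆ :=
        pow_index_mem_commutator_of_center (U.comap σ) (hc (e.symm a).2) (hd (e.symm a).2)
      rw [← Subgroup.map_subtype_commutator] at h2
      obtain ⟨w, hw, hw'⟩ := h2
      have h3 : w = j₀ y := by
        apply Subtype.ext
        rw [hy, h1]
        exact hw'
      rw [← h3]
      exact hw
  refine ⟨↥((σ.subgroupComap U).ker ⊓ commutator (U.comap σ)),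
    commGroupOfLeCenter _ (inf_le_left.trans hπc), f, MonoidHom.codRestrict j₀ _ hj₀, hf, ?_⟩
  intro x y hxy
  have h1 : j₀ x = j₀ y := congrArg Subtype.val hxy
  have h2 : ((e.symm x.1 : σ.ker) : Γ) = ((e.symm y.1 : σ.ker) : Γ) :=
    congrArg (fun w : ↥(U.comap σ) => (w : Γ)) h1
  exact Subtype.ext (e.symm.injective (Subtype.ext h2))

end Cfsg.Agent.H41
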