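import Mathlib
import Cfsg.Prelude.Def_KGroupFacts

/-!
# A double cover of the alternating group (helper41)

We work over `F = ZMod 3` on the space `V` of functions on subsets of `Fin n`.  The operators
`L k` (left multiplication by the `k`-th generator of a Clifford algebra, in the monomial basis)
satisfy `L k ^ 2 = 1` and anticommute; the operators `T k` anticommute with all `L j`.  The group
`GamSub n` consists of the pairs `(g, σ)`, `σ` an even permutation, with `g L k = L (σ k) g` and
`g T k = T k g`.  Its projection onto `A_n` is surjective with kernel `{±1}`.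
-/

set_option autoImplicit false
set_option linter.unusedSectionVars false
set_option linter.style.haveILetI false

namespace Cfsg.Agent.H41.Spin

open scoped symmDiff commutatorElement

/-- The coefficient field. -/
abbrev F := ZMod 3

variable (n : ℕ)

/-- The representation space. -/
abbrev V := Finset (Fin n) → F

section Abstract

variable {A : Type*} [Ring A]

theorem abs_unit (x : A) (h : x * x = -1) : x * -x = 1 ∧ -x * x = 1 := by
  constructor
  · rw [mul_neg, h, neg_neg]
  · rw [neg_mul, h, neg_neg]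

theorem abs_conj2 (x x' l l' l'' : A) (h1 : x' * l = -(l' * x')) (h2 : x * l' = -(l'' * x)) :
    x * x' * l = l'' * (x * x') := by
  rw [mul_assoc, h1, mul_neg, ← mul_assoc, h2, neg_mul, neg_neg, mul_assoc]

theorem abs_swap (w a b : A) (h1 : w * a = b * w) (h2 : w * b = a * w) (h3 : b * a = -(a * b)) :
    w * (a * b) = -(a * b * w) := by
  rw [← mul_assoc, h1, mul_assoc, h2, ← mul_assoc, h3, neg_mul]

theorem abs_neg_one_comm (x : A) : ((-1 : Aˣ) : A) * x = x * ((-1 : Aˣ) : A) := by
  simp

theorem abs_neg_cancel (a b : A) (h : ((-1 : Aˣ) : A) * a = b * ((-1 : Aˣ) : A)) : a = b := by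
  simpa using h

theorem abs_units_neg_one_comm (x : Aˣ) : x * -1 = -1 * x := by
  rw [mul_neg, neg_mul, mul_one, one_mul]

theorem abs_units_neg_one_sq : (-1 : Aˣ) ^ 2 = 1 := by
  rw [neg_one_sq]

theorem abs_units_anticomm (x y : Aˣ) (h : (x : A) * y = -((y : A) * x)) :
    ⁅x, y⁆ = -1 := by
  have h1 : x * y = -1 * (y * x) := by
    apply Units.ext
    rw [Units.val_mul, h]
    simp
  rw [commutatorElement_def, h1]
  group

end Abstract

section Signs

variable {n}

theorem prod_toggle (w : Fin n → F) (S : Finset (Fin n)) (j : Fin n) (hw : w j * w j = 1) :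
    ∏ s ∈ S ∆ {j}, w s = w j * ∏ s ∈ S, w s := by
  by_cases hj : j ∈ S
  · have h1 : S ∆ {j} = S.erase j := by
      ext a
      rw [Finset.mem_symmDiff, Finset.mem_erase, Finset.mem_singleton]
      constructor
      · rintro (⟨h1, h2⟩ | ⟨h1, h2⟩)
        · exact ⟨h2, h1⟩
        · exact absurd (h1 ▸ hj) h2
      · rintro ⟨h1, h2⟩
        exact Or.inl ⟨h2, h1⟩
    rw [h1]
    have h2 := Finset.mul_prod_erase S w hj
    calc ∏ s ∈ S.erase j, w s = (w j * w j) * ∏ s ∈ S.erase j, w s := by rw [hw, one_mul]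
      _ = w j * (w j * ∏ s ∈ S.erase j, w s) := by rw [mul_assoc]
      _ = w j * ∏ s ∈ S, w s := by rw [h2]
  · have h1 : S ∆ {j} = insert j S := by
      ext a
      rw [Finset.mem_symmDiff, Finset.mem_insert, Finset.mem_singleton]
      constructor
      · rintro (⟨h1, h2⟩ | ⟨h1, h2⟩)
        · exact Or.inr h1
        · exact Or.inl h1
      · rintro (h1 | h1)
        · exact Or.inr ⟨h1, h1 ▸ hj⟩
        · exact Or.inl ⟨h1, fun h => hj (h ▸ h1)⟩
    rw [h1, Finset.prod_insert hj]

theorem symmDiff_insert_of_notMem (S : Finset (Fin n)) (j : Fin n) (hj : j ∉ S) :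
    S ∆ {j} = insert j S := by
  ext a
  rw [Finset.mem_symmDiff, Finset.mem_insert, Finset.mem_singleton]
  constructor
  · rintro (⟨h1, h2⟩ | ⟨h1, h2⟩)
    · exact Or.inr h1
    · exact Or.inl h1
  · rintro (h1 | h1)
    · exact Or.inr ⟨h1, h1 ▸ hj⟩
    · exact Or.inl ⟨h1, fun h => hj (h ▸ h1)⟩

/-- The sign weight `-1` or `1`. -/
def sg (p : Prop) [Decidable p] : F := if p then -1 else 1

theorem sg_mul_self (p : Prop) [Decidable p] : sg p * sg p = 1 := by
  unfold sg; split_ifs <;> decide

/-- The sign of left multiplication by the `k`-th generator on the monomial `S`. -/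
def eps (k : Fin n) (S : Finset (Fin n)) : F := ∏ s ∈ S, sg (s < k)

/-- The sign for the operators `T k`. -/
def eta (k : Fin n) (S : Finset (Fin n)) : F := ∏ s ∈ S, sg (s ≤ k)

theorem eps_toggle (k j : Fin n) (S : Finset (Fin n)) :
    eps k (S ∆ {j}) = sg (j < k) * eps k S :=
  prod_toggle _ S j (sg_mul_self _)

theorem eta_toggle (k j : Fin n) (S : Finset (Fin n)) :
    eta k (S ∆ {j}) = sg (j ≤ k) * eta k S :=
  prod_toggle _ S j (sg_mul_self _)

theorem eps_mul_self (k : Fin n) (S : Finset (Fin n)) : eps k S * eps k S = 1 := by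
  unfold eps
  rw [← Finset.prod_mul_distrib]
  exact Finset.prod_eq_one (fun s _ => sg_mul_self _)

theorem eps_mul_eta (k : Fin n) (S : Finset (Fin n)) : eps k S * eta k S = sg (k ∈ S) := by
  unfold eps eta
  rw [← Finset.prod_mul_distrib]
  have h : ∀ s ∈ S, sg (s < k) * sg (s ≤ k) = if s = k then (-1 : F) else 1 := by
    intro s _
    unfold sg
    by_cases h1 : s = k
    · subst h1; simp
    · by_cases h2 : s < k
      · have h3 : s ≤ k := le_of_lt h2
        simp [h1, h2, h3]
      · have h3 : ¬ s ≤ k := fun h => h2 (lt_of_le_of_ne h h1)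
        simp [h1, h2, h3]
  rw [Finset.prod_congr rfl h, Finset.prod_ite_eq' ]
  unfold sg
  by_cases hk : k ∈ S <;> simp [hk]

end Signs

section Operators

/-- Left multiplication by the `k`-th Clifford generator. -/
def L (k : Fin n) : Module.End F (V n) where
  toFun f := fun S => eps k S * f (S ∆ {k})
  map_add' f g := by
    funext S
    simp only [Pi.add_apply, mul_add]
  map_smul' c f := by
    funext S
    simp only [Pi.smul_apply, smul_eq_mul, RingHom.id_apply, mul_left_comm]

/-- Auxiliary operators anticommuting with all `L j`. -/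
def T (k : Fin n) : Module.End F (V n) where
  toFun f := fun S => eta k S * f (S ∆ {k})
  map_add' f g := by
    funext S
    simp only [Pi.add_apply, mul_add]
  map_smul' c f := by
    funext S
    simp only [Pi.smul_apply, smul_eq_mul, RingHom.id_apply, mul_left_comm]

variable {n}

theorem L_apply (k : Fin n) (f : V n) (S : Finset (Fin n)) :
    L n k f S = eps k S * f (S ∆ {k}) := rfl

theorem T_apply (k : Fin n) (f : V n) (S : Finset (Fin n)) :
    T n k f S = eta k S * f (S ∆ {k}) := rfl

theorem L_mul_self (k : Fin n) : L n k * L n k = 1 := by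
  apply LinearMap.ext
  intro f
  funext S
  rw [Module.End.mul_apply, L_apply, L_apply, eps_toggle, symmDiff_symmDiff_cancel_right,
    Module.End.one_apply]
  have h : sg (k < k) = 1 := by unfold sg; simp
  rw [h, one_mul, ← mul_assoc, eps_mul_self, one_mul]

theorem L_anticomm (j k : Fin n) (hjk : j ≠ k) : L n j * L n k = -(L n k * L n j) := by
  apply LinearMap.ext
  intro f
  funext S
  rw [LinearMap.neg_apply, Pi.neg_apply, Module.End.mul_apply, Module.End.mul_apply, L_apply,
    L_apply, L_apply, L_apply, eps_toggle, eps_toggle, symmDiff_right_comm S {j} {k}]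
  have h : sg (j < k) = -sg (k < j) := by
    unfold sg
    rcases lt_or_gt_of_ne hjk with h1 | h1
    · have h2 : ¬ k < j := not_lt.2 (le_of_lt h1)
      simp [h1, h2]
    · have h2 : ¬ j < k := not_lt.2 (le_of_lt h1)
      simp [h1, h2]
  rw [h]
  ring

theorem L_T_anticomm (j k : Fin n) : L n j * T n k = -(T n k * L n j) := by
  apply LinearMap.ext
  intro f
  funext S
  rw [LinearMap.neg_apply, Pi.neg_apply, Module.End.mul_apply, Module.End.mul_apply, L_apply,
    T_apply, T_apply, L_apply, eta_toggle, eps_toggle, symmDiff_right_comm S {j} {k}]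
  have h : sg (j ≤ k) = -sg (k < j) := by
    unfold sg
    by_cases h1 : j ≤ k
    · have h2 : ¬ k < j := not_lt.2 h1
      simp [h1, h2]
    · have h2 : k < j := not_le.1 h1
      simp [h1, h2]
  rw [h]
  ring

theorem L_T_apply (k : Fin n) (f : V n) (S : Finset (Fin n)) :
    (L n k * T n k) f S = -sg (k ∈ S) * f S := by
  rw [Module.End.mul_apply, L_apply, T_apply, eta_toggle, symmDiff_symmDiff_cancel_right]
  have h : sg (k ≤ k) = -1 := by unfold sg; simp
  rw [h, ← eps_mul_eta]
  ring

theorem L_single (k : Fin n) (S : Finset (Fin n)) :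
    L n k (Pi.single S 1) = eps k (S ∆ {k}) • Pi.single (S ∆ {k}) (1 : F) := by
  funext U
  rw [L_apply, Pi.smul_apply, smul_eq_mul]
  by_cases h : U = S ∆ {k}
  · subst h
    rw [symmDiff_symmDiff_cancel_right, Pi.single_eq_same, Pi.single_eq_same]
  · have h' : U ∆ {k} ≠ S := by
      intro h2
      apply h
      rw [← h2, symmDiff_symmDiff_cancel_right]
    rw [Pi.single_eq_of_ne h', Pi.single_eq_of_ne h, mul_zero, mul_zero]

theorem L_injective : Function.Injective (L n) := by
  intro j k hjk
  have h1 := congrFun (congrArg (fun g => g (Pi.single (∅ : Finset (Fin n)) (1 : F))) hjk) {j}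
  simp only [L_apply] at h1
  by_contra hne
  have h2 : ({j} : Finset (Fin n)) ∆ {j} = ∅ := symmDiff_self _
  have h3 : ({j} : Finset (Fin n)) ∆ {k} ≠ ∅ := by
    intro h
    have : ({j} : Finset (Fin n)) = {k} := symmDiff_eq_bot.1 h
    exact hne (Finset.singleton_injective this)
  rw [h2, Pi.single_eq_same, Pi.single_eq_of_ne h3, mul_one, mul_zero] at h1
  have h4 := eps_mul_self j {j}
  rw [h1, mul_zero] at h4
  exact zero_ne_one h4

end Operators

section Scalar

variable {n}

theorem two_mul_eq_zero_F (x : F) (h : x = -x) : x = 0 := by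
  revert x; decide

/-- An endomorphism commuting with all `L k` and `T k` is a scalar. -/
theorem scalar_of_commute (g : Module.End F (V n)) (h1 : ∀ k, g * L n k = L n k * g)
    (h2 : ∀ k, g * T n k = T n k * g) : ∃ c : F, g = c • (1 : Module.End F (V n)) := by
  have hD : ∀ k, g * (L n k * T n k) = (L n k * T n k) * g := by
    intro k
    rw [← mul_assoc, h1, mul_assoc, h2, mul_assoc]
  have hDsingle : ∀ (k : Fin n) (S : Finset (Fin n)),
      (L n k * T n k) (Pi.single S (1 : F)) = (-sg (k ∈ S)) • Pi.single S (1 : F) := by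
    intro k S
    funext U
    rw [L_T_apply, Pi.smul_apply, smul_eq_mul]
    by_cases h : U = S
    · rw [h]
    · rw [Pi.single_eq_of_ne h, mul_zero, mul_zero]
  -- `g` is diagonal
  have hdiag : ∀ S U : Finset (Fin n), U ≠ S → g (Pi.single S (1 : F)) U = 0 := by
    intro S U hne
    have hk : ∃ k : Fin n, ¬ (k ∈ U ↔ k ∈ S) := by
      by_contra hc
      push Not at hc
      exact hne (Finset.ext hc)
    obtain ⟨k, hk⟩ := hk
    have e1 : g ((L n k * T n k) (Pi.single S (1 : F))) U =
        (L n k * T n k) (g (Pi.single S (1 : F))) U :=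
      congrFun (congrArg (fun φ => φ (Pi.single S (1 : F))) (hD k)) U
    rw [hDsingle, map_smul, Pi.smul_apply, smul_eq_mul, L_T_apply] at e1
    have e3 : sg (k ∈ U) = -sg (k ∈ S) := by
      unfold sg
      by_cases hU : k ∈ U
      · have hS : k ∉ S := fun hS => hk ⟨fun _ => hS, fun _ => hU⟩
        simp [hU, hS]
      · have hS : k ∈ S := by
          by_contra hS
          exact hk ⟨fun h => absurd h hU, fun h => absurd h hS⟩
        simp [hU, hS]
    apply two_mul_eq_zero_F
    have e4 : sg (k ∈ S) * (-sg (k ∈ S) * g (Pi.single S (1 : F)) U) =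
        sg (k ∈ S) * (- -sg (k ∈ S) * g (Pi.single S (1 : F)) U) := by
      rw [e1, e3]
    rw [neg_neg, ← mul_assoc, ← mul_assoc, mul_neg, sg_mul_self, neg_mul, one_mul] at e4
    exact e4.symm
  have hgs : ∀ S : Finset (Fin n), g (Pi.single S (1 : F)) =
      (g (Pi.single S (1 : F)) S) • Pi.single S (1 : F) := by
    intro S
    funext U
    rw [Pi.smul_apply, smul_eq_mul]
    by_cases h : U = S
    · rw [h, Pi.single_eq_same, mul_one]
    · rw [hdiag S U h, Pi.single_eq_of_ne h, mul_zero]
  -- the diagonal entries are all equal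
  have hstep : ∀ (S : Finset (Fin n)) (k : Fin n),
      g (Pi.single (S ∆ {k}) (1 : F)) (S ∆ {k}) = g (Pi.single S (1 : F)) S := by
    intro S k
    have e1 := congrFun (congrArg (fun φ => φ (Pi.single S (1 : F))) (h1 k)) (S ∆ {k})
    simp only [Module.End.mul_apply] at e1
    rw [L_single, map_smul, Pi.smul_apply, smul_eq_mul, L_apply, symmDiff_symmDiff_cancel_right]
      at e1
    have e2 := congrArg (fun x => eps k (S ∆ {k}) * x) e1
    simp only [← mul_assoc, eps_mul_self, one_mul] at e2
    exact e2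
  have hall : ∀ S : Finset (Fin n),
      g (Pi.single S (1 : F)) S = g (Pi.single (∅ : Finset (Fin n)) (1 : F)) ∅ := by
    intro S
    induction S using Finset.induction_on with
    | empty => rfl
    | insert a S ha ih =>
      rw [← symmDiff_insert_of_notMem S a ha, hstep, ih]
  refine ⟨g (Pi.single (∅ : Finset (Fin n)) (1 : F)) ∅, ?_⟩
  apply LinearMap.pi_ext
  intro S x
  have hx : (Pi.single S x : V n) = x • Pi.single S (1 : F) := by
    funext U
    rw [Pi.smul_apply, smul_eq_mul]
    by_cases h : U = S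
    · rw [h, Pi.single_eq_same, Pi.single_eq_same, mul_one]
    · rw [Pi.single_eq_of_ne h, Pi.single_eq_of_ne h, mul_zero]
  rw [hx, map_smul, map_smul, hgs S, hall S, LinearMap.smul_apply, Module.End.one_apply]

end Scalar

section Group

/-- The ring of operators. -/
abbrev R := Module.End F (V n)

instance instFiniteR : Finite (R n) :=
  Finite.of_injective (fun f : R n => (f : V n → V n)) DFunLike.coe_injective

/-- The spin cover of `A_n`, as a subgroup of `Rˣ × A_n`. -/
def GamSub : Subgroup ((R n)ˣ × alternatingGroup (Fin n)) where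
  carrier := {p | (∀ k, (p.1 : R n) * L n k = L n ((p.2 : Equiv.Perm (Fin n)) k) * (p.1 : R n)) ∧
    ∀ k, (p.1 : R n) * T n k = T n k * (p.1 : R n)}
  one_mem' := by
    constructor
    · intro k
      rw [Prod.fst_one, Prod.snd_one, Units.val_one, one_mul, mul_one]; rfl
    · intro k
      rw [Prod.fst_one, Units.val_one, one_mul, mul_one]
  mul_mem' := by
    rintro p q ⟨hp1, hp2⟩ ⟨hq1, hq2⟩
    constructor
    · intro k
      rw [Prod.fst_mul, Prod.snd_mul, Units.val_mul, mul_assoc, hq1, ← mul_assoc, hp1, mul_assoc]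
      rfl
    · intro k
      rw [Prod.fst_mul, Units.val_mul, mul_assoc, hq2, ← mul_assoc, hp2, mul_assoc]
  inv_mem' := by
    rintro p ⟨hp1, hp2⟩
    constructor
    · intro k
      have h := hp1 ((p.2 : Equiv.Perm (Fin n))⁻¹ k)
      rw [← Equiv.Perm.mul_apply, mul_inv_cancel, Equiv.Perm.one_apply] at h
      rw [Prod.fst_inv, Prod.snd_inv, Units.inv_mul_eq_iff_eq_mul, ← mul_assoc, Subgroup.coe_inv, h,
        mul_assoc, Units.mul_inv, mul_one]
    · intro k
      rw [Prod.fst_inv, Units.inv_mul_eq_iff_eq_mul, ← mul_assoc, hp2, mul_assoc, Units.mul_inv,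
        mul_one]

variable {n}

theorem mem_GamSub (p : (R n)ˣ × alternatingGroup (Fin n)) : p ∈ GamSub n ↔
    (∀ k, (p.1 : R n) * L n k = L n ((p.2 : Equiv.Perm (Fin n)) k) * (p.1 : R n)) ∧
    ∀ k, (p.1 : R n) * T n k = T n k * (p.1 : R n) := Iff.rfl

theorem one_add_one_R : (1 : R n) + 1 = -1 := by
  apply LinearMap.ext
  intro f
  funext S
  rw [LinearMap.add_apply, LinearMap.neg_apply, Module.End.one_apply, Pi.add_apply, Pi.neg_apply]
  have : ∀ x : F, x + x = -x := by decide
  exact this _

/-- The vector `e_i - e_j`. -/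
def v (i j : Fin n) : R n := L n i - L n j

theorem v_mul_self (i j : Fin n) (hij : i ≠ j) : v i j * v i j = -1 := by
  unfold v
  rw [sub_mul, mul_sub, mul_sub, L_mul_self, L_mul_self, L_anticomm j i hij.symm, ← one_add_one_R]
  abel

theorem v_L (i j k : Fin n) (hij : i ≠ j) :
    v i j * L n k = -(L n (Equiv.swap i j k) * v i j) := by
  unfold v
  by_cases hki : k = i
  · subst hki
    rw [Equiv.swap_apply_left, sub_mul, mul_sub, L_mul_self, L_mul_self]
    abel
  · by_cases hkj : k = j
    · subst hkj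
      rw [Equiv.swap_apply_right, sub_mul, mul_sub, L_mul_self, L_mul_self]
      abel
    · rw [Equiv.swap_apply_of_ne_of_ne hki hkj, sub_mul, mul_sub,
        L_anticomm i k (fun h => hki h.symm), L_anticomm j k (fun h => hkj h.symm)]
      abel

theorem v_T (i j k : Fin n) : v i j * T n k = -(T n k * v i j) := by
  unfold v
  rw [sub_mul, mul_sub, L_T_anticomm, L_T_anticomm]
  abel

theorem v_anticomm (i j k l : Fin n) (hik : i ≠ k) (hil : i ≠ l) (hjk : j ≠ k) (hjl : j ≠ l) :
    v i j * v k l = -(v k l * v i j) := by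
  unfold v
  rw [sub_mul, mul_sub, mul_sub, sub_mul, mul_sub, mul_sub, L_anticomm i k hik, L_anticomm i l hil,
    L_anticomm j k hjk, L_anticomm j l hjl]
  abel

/-- `e_i - e_j` as a unit. -/
def vUnit (i j : Fin n) (hij : i ≠ j) : (R n)ˣ :=
  ⟨v i j, -v i j, (abs_unit (v i j) (v_mul_self i j hij)).1,
    (abs_unit (v i j) (v_mul_self i j hij)).2⟩

theorem vUnit_val (i j : Fin n) (hij : i ≠ j) : ((vUnit i j hij : (R n)ˣ) : R n) = v i j := rfl

theorem swap_mul_swap_mem (i j k l : Fin n) (hij : i ≠ j) (hkl : k ≠ l) :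
    Equiv.swap i j * Equiv.swap k l ∈ alternatingGroup (Fin n) := by
  rw [Equiv.Perm.mem_alternatingGroup, map_mul, Equiv.Perm.sign_swap hij, Equiv.Perm.sign_swap hkl]
  rfl

/-- The lift of a product of two transpositions. -/
theorem pair_mem (i j k l : Fin n) (hij : i ≠ j) (hkl : k ≠ l) :
    ((vUnit i j hij * vUnit k l hkl, ⟨Equiv.swap i j * Equiv.swap k l,
      swap_mul_swap_mem i j k l hij hkl⟩) : (R n)ˣ × alternatingGroup (Fin n)) ∈ GamSub n := by
  rw [mem_GamSub]
  constructor
  · intro m
    show v i j * v k l * L n m = L n (Equiv.swap i j (Equiv.swap k l m)) * (v i j * v k l)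
    exact abs_conj2 (v i j) (v k l) (L n m) (L n (Equiv.swap k l m))
      (L n (Equiv.swap i j (Equiv.swap k l m))) (v_L k l m hkl) (v_L i j _ hij)
  · intro m
    show v i j * v k l * T n m = T n m * (v i j * v k l)
    exact abs_conj2 (v i j) (v k l) (T n m) (T n m) (T n m) (v_T k l m) (v_T i j m)

variable (n)

/-- The projection onto `A_n`. -/
def proj : GamSub n →* alternatingGroup (Fin n) :=
  (MonoidHom.snd _ _).comp (GamSub n).subtype

variable {n}

theorem proj_surjective : Function.Surjective (proj n) := by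
  -- the image, as a subgroup of the symmetric group
  have key : ∀ (m : ℕ) (l : List (Equiv.Perm (Fin n))), l.length = 2 * m →
      (∀ g ∈ l, g.IsSwap) → ∃ (h : l.prod ∈ alternatingGroup (Fin n)),
        ∃ x : GamSub n, proj n x = ⟨l.prod, h⟩ := by
    intro m
    induction m with
    | zero =>
      intro l hl _
      have : l = [] := List.length_eq_zero_iff.1 (by omega)
      subst this
      exact ⟨Subgroup.one_mem _, 1, rfl⟩
    | succ m ih =>
      intro l hl hsw
      match l, hl, hsw with
      | [], hl, _ => simp at hl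
      | [a], hl, _ => simp at hl; omega
      | a :: b :: l', hl, hsw =>
        have hl' : l'.length = 2 * m := by simp at hl; omega
        obtain ⟨h', x', hx'⟩ := ih l' hl' (fun g hg => hsw g (by simp [hg]))
        obtain ⟨i, j, hij, rfl⟩ := hsw a (by simp)
        obtain ⟨k, l, hkl, rfl⟩ := hsw b (by simp)
        have hprod : (Equiv.swap i j :: Equiv.swap k l :: l').prod =
            Equiv.swap i j * Equiv.swap k l * l'.prod := by
          rw [List.prod_cons, List.prod_cons, mul_assoc]
        refine ⟨?_, ⟨_, pair_mem i j k l hij hkl⟩ * x', ?_⟩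
        · rw [hprod]
          exact Subgroup.mul_mem _ (swap_mul_swap_mem i j k l hij hkl) h'
        · rw [map_mul, hx']
          apply Subtype.ext
          rw [Subgroup.coe_mul]
          exact hprod.symm
  intro σ
  obtain ⟨l, hl1, hl2⟩ := Equiv.Perm.swapFactors (σ : Equiv.Perm (Fin n))
  have heven : Even l.length := by
    rw [← Equiv.Perm.prod_list_swap_mem_alternatingGroup_iff_even_length hl2, hl1]
    exact σ.2
  obtain ⟨m, hm⟩ := heven
  obtain ⟨h, x, hx⟩ := key m l (by omega) hl2
  refine ⟨x, ?_⟩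
  rw [hx]
  exact Subtype.ext hl1

end Group

section Cover

variable {n}

/-- The central element `(-1, 1)`. -/
def zEl : GamSub n := ⟨(-1, 1), by
  rw [mem_GamSub]
  constructor
  · intro k
    exact abs_neg_one_comm (L n k)
  · intro k
    exact abs_neg_one_comm (T n k)⟩

theorem neg_one_ne_one_R : ((-1 : (R n)ˣ) : R n) ≠ 1 := by
  intro h
  have h0 := congrFun (congrArg (fun φ : R n => φ (Pi.single (∅ : Finset (Fin n)) (1 : F))) h) ∅
  simp only [Units.val_neg, Units.val_one, LinearMap.neg_apply, Module.End.one_apply, Pi.neg_apply,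
    Pi.single_eq_same] at h0
  exact absurd h0 (by decide : ¬ ((-1 : F) = 1))

theorem fst_of_snd_eq_one (p : (R n)ˣ × alternatingGroup (Fin n)) (hp : p ∈ GamSub n)
    (h : p.2 = 1) : p.1 = 1 ∨ p.1 = -1 := by
  obtain ⟨h1, h2⟩ := (mem_GamSub p).1 hp
  have h1' : ∀ k, (p.1 : R n) * L n k = L n k * p.1 := by
    intro k
    have := h1 k
    rw [h] at this
    exact this
  obtain ⟨c, hc⟩ := scalar_of_commute (p.1 : R n) h1' h2
  have hc0 : c ≠ 0 := by
    rintro rfl
    rw [zero_smul] at hc
    have h3 := p.1.mul_inv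
    rw [hc, zero_mul] at h3
    have h0 := congrFun (congrArg (fun φ : R n => φ (Pi.single (∅ : Finset (Fin n)) (1 : F))) h3) ∅
    simp only [LinearMap.zero_apply, Module.End.one_apply, Pi.zero_apply, Pi.single_eq_same] at h0
    exact absurd h0 (by decide : ¬ ((0 : F) = 1))
  have hF : ∀ c : F, c ≠ 0 → c = 1 ∨ c = -1 := by decide
  rcases hF c hc0 with rfl | rfl
  · left
    apply Units.ext
    rw [hc, one_smul]; rfl
  · right
    apply Units.ext
    rw [hc, Units.val_neg, Units.val_one]
    apply LinearMap.ext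
    intro f
    funext S
    rw [LinearMap.smul_apply, LinearMap.neg_apply, Module.End.one_apply, Pi.smul_apply,
      Pi.neg_apply, smul_eq_mul, neg_mul, one_mul]

theorem ker_proj : (proj n).ker = Subgroup.zpowers (zEl : GamSub n) := by
  apply le_antisymm
  · intro x hx
    have h2 : x.1.2 = 1 := hx
    rcases fst_of_snd_eq_one x.1 x.2 h2 with h | h
    · have : x = 1 := Subtype.ext (Prod.ext h h2)
      rw [this]; exact Subgroup.one_mem _
    · have : x = zEl := Subtype.ext (Prod.ext h h2)
      rw [this]; exact Subgroup.mem_zpowers _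
  · rw [Subgroup.zpowers_le]; rfl

theorem zEl_mem_center : (zEl : GamSub n) ∈ Subgroup.center (GamSub n) := by
  rw [Subgroup.mem_center_iff]
  intro g
  apply Subtype.ext
  apply Prod.ext
  · exact abs_units_neg_one_comm g.1.1
  · show g.1.2 * 1 = 1 * g.1.2
    rw [mul_one, one_mul]

theorem orderOf_zEl : orderOf (zEl : GamSub n) = 2 := by
  haveI : Fact (Nat.Prime 2) := ⟨Nat.prime_two⟩
  apply orderOf_eq_prime
  · apply Subtype.ext
    apply Prod.ext
    · exact abs_units_neg_one_sq
    · show (1 : alternatingGroup (Fin n)) ^ 2 = 1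
      rw [one_pow]
  · intro h
    have h1 : ((-1 : (R n)ˣ) : R n) = 1 := congrArg (fun x : GamSub n => (x.1.1 : R n)) h
    exact neg_one_ne_one_R h1

theorem eq_zEl_of_fst (c : GamSub n) (h : c.1.1 = -1) : c = zEl := by
  apply Subtype.ext
  apply Prod.ext h
  show c.1.2 = 1
  obtain ⟨h1, _⟩ := (mem_GamSub c.1).1 c.2
  apply Subtype.ext
  apply Equiv.ext
  intro k
  have h2 := h1 k
  rw [h] at h2
  exact (L_injective (abs_neg_cancel _ _ h2)).symm

theorem zEl_mem_commutator (hn : 4 ≤ n) : (zEl : GamSub n) ∈ commutator (GamSub n) := by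
  obtain ⟨i0, h0⟩ : ∃ i : Fin n, i.val = 0 := ⟨⟨0, by omega⟩, rfl⟩
  obtain ⟨i1, h1⟩ : ∃ i : Fin n, i.val = 1 := ⟨⟨1, by omega⟩, rfl⟩
  obtain ⟨i2, h2⟩ : ∃ i : Fin n, i.val = 2 := ⟨⟨2, by omega⟩, rfl⟩
  obtain ⟨i3, h3⟩ : ∃ i : Fin n, i.val = 3 := ⟨⟨3, by omega⟩, rfl⟩
  have h01 : i0 ≠ i1 := Fin.ne_of_val_ne (by omega)
  have h02 : i0 ≠ i2 := Fin.ne_of_val_ne (by omega)
  have h03 : i0 ≠ i3 := Fin.ne_of_val_ne (by omega)
  have h12 : i1 ≠ i2 := Fin.ne_of_val_ne (by omega)
  have h13 : i1 ≠ i3 := Fin.ne_of_val_ne (by omega)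
  have h23 : i2 ≠ i3 := Fin.ne_of_val_ne (by omega)
  obtain ⟨x, hx⟩ : ∃ x : GamSub n, x = ⟨_, pair_mem i0 i1 i2 i3 h01 h23⟩ := ⟨_, rfl⟩
  obtain ⟨y, hy⟩ : ∃ y : GamSub n, y = ⟨_, pair_mem i0 i2 i1 i3 h02 h13⟩ := ⟨_, rfl⟩
  have hyL : ∀ m, v i0 i2 * v i1 i3 * L n m =
      L n (Equiv.swap i0 i2 (Equiv.swap i1 i3 m)) * (v i0 i2 * v i1 i3) :=
    ((mem_GamSub _).1 (pair_mem i0 i2 i1 i3 h02 h13)).1
  have e0 := hyL i0
  have e1 := hyL i1
  have e2 := hyL i2
  have e3 := hyL i3
  rw [Equiv.swap_apply_of_ne_of_ne h01 h03, Equiv.swap_apply_left] at e0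
  rw [Equiv.swap_apply_left, Equiv.swap_apply_of_ne_of_ne h03.symm h23.symm] at e1
  rw [Equiv.swap_apply_of_ne_of_ne h12.symm h23, Equiv.swap_apply_right] at e2
  rw [Equiv.swap_apply_right, Equiv.swap_apply_of_ne_of_ne h01.symm h12] at e3
  have k1 : v i0 i2 * v i1 i3 * v i0 i1 = v i2 i3 * (v i0 i2 * v i1 i3) := by
    have : v i0 i1 = L n i0 - L n i1 := rfl
    rw [this, mul_sub, e0, e1, ← sub_mul]; rfl
  have k2 : v i0 i2 * v i1 i3 * v i2 i3 = v i0 i1 * (v i0 i2 * v i1 i3) := by
    have : v i2 i3 = L n i2 - L n i3 := rfl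
    rw [this, mul_sub, e2, e3, ← sub_mul]; rfl
  have k3 := abs_swap (v i0 i2 * v i1 i3) (v i0 i1) (v i2 i3) k1 k2
    (v_anticomm i2 i3 i0 i1 h02.symm h12.symm h03.symm h13.symm)
  have k4 : ⁅vUnit i0 i2 h02 * vUnit i1 i3 h13, vUnit i0 i1 h01 * vUnit i2 i3 h23⁆ = -1 :=
    abs_units_anticomm _ _ k3
  have hcomm : ⁅y, x⁆ = zEl := by
    apply eq_zEl_of_fst
    rw [hx, hy]
    exact k4
  rw [← hcomm]
  exact Subgroup.commutator_mem_commutator (Subgroup.mem_top _) (Subgroup.mem_top _)

/-- For `n ≥ 4` the alternating group `A_n` has a double cover whose central involution is a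
commutator. -/
theorem exists_double_cover (hn : 4 ≤ n) :
    ∃ (Γ : Type) (_ : Group Γ) (_ : Finite Γ) (z : Γ) (_ : z ∈ Subgroup.center Γ),
      orderOf z = 2 ∧ z ∈ commutator Γ ∧ ∃ _ : (Subgroup.zpowers z).Normal,
        Nonempty (Γ ⧸ Subgroup.zpowers z ≃* alternatingGroup (Fin n)) := by
  have hnorm : (Subgroup.zpowers (zEl : GamSub n)).Normal := by
    rw [← ker_proj]; infer_instance
  refine ⟨GamSub n, inferInstance, inferInstance, zEl, zEl_mem_center, orderOf_zEl,
    zEl_mem_commutator hn, hnorm, ?_⟩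
  exact ⟨(QuotientGroup.quotientMulEquivOfEq ker_proj.symm).trans
    (QuotientGroup.quotientKerEquivOfSurjective (proj n) proj_surjective)⟩

end Cover

end Cfsg.Agent.H41.Spin
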