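import Mathlib
import Cfsg.Prelude.Def_KGroupFacts
import Cfsg.Agent.H41.Spin
import Cfsg.Agent.H41.Cover2

/-!
# Double covers of groups mapping to `A_n` (helper41)

A finite group `G` with a homomorphism to `A_n` under which two commuting elements go to
`(i0 i1)(i2 i3)` and `(i0 i2)(i1 i3)` has a stem extension with kernel of order two: the pullback
of the spin cover `Spin.GamSub n`.
-/

set_option autoImplicit false
set_option linter.unusedSectionVars false
set_option linter.style.haveILetI false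

namespace Cfsg.Agent.H41.Spin

open Cfsg
open scoped commutatorElement

variable {n : ℕ}

/-- The lifts of `(i0 i2)(i1 i3)` and `(i0 i1)(i2 i3)` have commutator the central involution. -/
theorem comm_pair_lifts (i0 i1 i2 i3 : Fin n) (h01 : i0 ≠ i1) (h02 : i0 ≠ i2) (h03 : i0 ≠ i3)
    (h12 : i1 ≠ i2) (h13 : i1 ≠ i3) (h23 : i2 ≠ i3) :
    ⁅(⟨_, pair_mem i0 i2 i1 i3 h02 h13⟩ : GamSub n), ⟨_, pair_mem i0 i1 i2 i3 h01 h23⟩⁆ = zEl := by
  have hyL : ∀ m, v i0 i2 * v i1 i3 * L n m =
      L n (Equiv.swap i0 i2 (Equiv.swap i1 i3 m)) * (v i0 i2 * v i1 i3) :=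
    ((mem_GamSub _).1 (pair_mem i0 i2 i1 i3 h02 h13)).1
  have e0 := hyL i0
  have e1 := hyL i1
  have e2 := hyL i2
  have e3 := hyL i3
  rw [Equiv.swap_apply_of_ne_of_ne h01 h03, Equiv.swap_apply_left] at e0
  rw [Equiv.swap_apply_left, Equiv.swap_apply_of_ne_of_ne h03.symm h23.symm] at e1
  rw [Equiv.swap_apply_of_ne_of_ne h12.symm h23, Equiv.swap_apply_right] at e2
  rw [Equiv.swap_apply_right, Equiv.swap_apply_of_ne_of_ne h01.symm h12] at e3
  have k1 : v i0 i2 * v i1 i3 * v i0 i1 = v i2 i3 * (v i0 i2 * v i1 i3) := by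
    have : v i0 i1 = L n i0 - L n i1 := rfl
    rw [this, mul_sub, e0, e1, ← sub_mul]; rfl
  have k2 : v i0 i2 * v i1 i3 * v i2 i3 = v i0 i1 * (v i0 i2 * v i1 i3) := by
    have : v i2 i3 = L n i2 - L n i3 := rfl
    rw [this, mul_sub, e2, e3, ← sub_mul]; rfl
  have k3 := abs_swap (v i0 i2 * v i1 i3) (v i0 i1) (v i2 i3) k1 k2
    (v_anticomm i2 i3 i0 i1 h02.symm h12.symm h03.symm h13.symm)
  have k4 : ⁅vUnit i0 i2 h02 * vUnit i1 i3 h13, vUnit i0 i1 h01 * vUnit i2 i3 h23⁆ = -1 :=
    abs_units_anticomm _ _ k3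
  apply eq_zEl_of_fst
  exact k4

theorem eq_one_or_eq_zEl (x : GamSub n) (h : proj n x = 1) : x = 1 ∨ x = zEl := by
  have h2 : x.1.2 = 1 := h
  rcases fst_of_snd_eq_one x.1 x.2 h2 with h | h
  · left; exact Subtype.ext (Prod.ext h h2)
  · right; exact Subtype.ext (Prod.ext h h2)

theorem zEl_ne_one : (zEl : GamSub n) ≠ 1 := by
  intro h
  have h1 := orderOf_zEl (n := n)
  rw [h, orderOf_one] at h1
  omega

/-- A finite group mapping to `A_n` with two commuting elements going to `(i0 i1)(i2 i3)` and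
`(i0 i2)(i1 i3)` has a stem extension with kernel of order `2`. -/
theorem exists_double_cover_of_hom {G : Type} [Group G] [Finite G]
    (ι : G →* alternatingGroup (Fin n)) (a b : G) (hab : a * b = b * a)
    (i0 i1 i2 i3 : Fin n) (h01 : i0 ≠ i1) (h02 : i0 ≠ i2) (h03 : i0 ≠ i3)
    (h12 : i1 ≠ i2) (h13 : i1 ≠ i3) (h23 : i2 ≠ i3)
    (ha : ((ι a : alternatingGroup (Fin n)) : Equiv.Perm (Fin n)) =
      Equiv.swap i0 i1 * Equiv.swap i2 i3)
    (hb : ((ι b : alternatingGroup (Fin n)) : Equiv.Perm (Fin n)) =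
      Equiv.swap i0 i2 * Equiv.swap i1 i3) :
    ∃ (Γ : Type) (_ : Group Γ) (_ : Finite Γ) (σ : Γ →* G), IsStemExtension σ ∧
      Nonempty (σ.ker ≃* Multiplicative (ZMod 2)) := by
  have hs : Function.Surjective (pullbackFst ι (proj n)) :=
    pullbackFst_surjective ι (proj n) proj_surjective
  have hc : (pullbackFst ι (proj n)).ker ≤ Subgroup.center (pullback ι (proj n)) := by
    apply pullbackFst_ker_le_center
    rw [ker_proj, Subgroup.zpowers_le]
    exact zEl_mem_center
  -- the nontrivial kernel element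
  obtain ⟨z', hz'⟩ : ∃ z' : pullback ι (proj n), z' = ⟨(1, zEl), by
      rw [mem_pullback, map_one]; rfl⟩ := ⟨_, rfl⟩
  have hz'ker : z' ∈ (pullbackFst ι (proj n)).ker := by
    rw [hz']; rfl
  have hz'1 : z' ≠ 1 := by
    intro h
    rw [hz'] at h
    have h2 : (zEl : GamSub n) = 1 := congrArg (fun w : pullback ι (proj n) => w.1.2) h
    exact zEl_ne_one h2
  have hall : ∀ w ∈ (pullbackFst ι (proj n)).ker, w = 1 ∨ w = z' := by
    intro w hw
    have h1 : w.1.1 = 1 := hw
    have h2 : proj n w.1.2 = 1 := by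
      have := w.2
      rw [mem_pullback, h1, map_one] at this
      exact this.symm
    rcases eq_one_or_eq_zEl w.1.2 h2 with h | h
    · left; exact Subtype.ext (Prod.ext h1 h)
    · right; rw [hz']; exact Subtype.ext (Prod.ext h1 h)
  -- `z'` is a commutator
  have hz'comm : z' ∈ commutator (pullback ι (proj n)) := by
    obtain ⟨x, hx⟩ : ∃ x : pullback ι (proj n),
        x = ⟨(a, ⟨_, pair_mem i0 i1 i2 i3 h01 h23⟩), by
          rw [mem_pullback]; exact Subtype.ext ha⟩ := ⟨_, rfl⟩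
    obtain ⟨y, hy⟩ : ∃ y : pullback ι (proj n),
        y = ⟨(b, ⟨_, pair_mem i0 i2 i1 i3 h02 h13⟩), by
          rw [mem_pullback]; exact Subtype.ext hb⟩ := ⟨_, rfl⟩
    have hcomm : ⁅y, x⁆ = z' := by
      rw [hx, hy, hz']
      apply Subtype.ext
      apply Prod.ext
      · show ⁅b, a⁆ = 1
        rw [commutatorElement_eq_one_iff_mul_comm]; exact hab.symm
      · exact comm_pair_lifts i0 i1 i2 i3 h01 h02 h03 h12 h13 h23
    rw [← hcomm]
    exact Subgroup.commutator_mem_commutator (Subgroup.mem_top _) (Subgroup.mem_top _)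
  refine ⟨pullback ι (proj n), inferInstance, inferInstance, pullbackFst ι (proj n),
    ⟨hs, hc, ?_⟩, ?_⟩
  · intro w hw
    rcases hall w hw with h | h
    · rw [h]; exact Subgroup.one_mem _
    · rw [h]; exact hz'comm
  · have hcard : Nat.card (pullbackFst ι (proj n)).ker = 2 := by
      rw [Nat.card_eq_two_iff]
      refine ⟨1, ⟨z', hz'ker⟩, ?_, ?_⟩
      · intro h
        exact hz'1 (congrArg Subtype.val h).symm
      · ext w
        simp only [Set.mem_insert_iff, Set.mem_singleton_iff, Set.mem_univ, iff_true]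
        rcases hall w.1 w.2 with h | h
        · left; exact Subtype.ext h
        · right; exact Subtype.ext h
    haveI : Fact (Nat.Prime 2) := ⟨Nat.prime_two⟩
    haveI hcyc : IsCyclic (pullbackFst ι (proj n)).ker := isCyclic_of_prime_card hcard
    have e := zmodCyclicMulEquiv hcyc
    rw [hcard] at e
    exact ⟨e.symm⟩

end Cfsg.Agent.H41.Spin
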