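import Mathlib
import Cfsg.Prelude.Def_SporadicB
import Cfsg.Agent.H41.LocalStem
import Cfsg.Agent.H41.Spin2
import Cfsg.Agent.H41.Restrict

/-!
# Non-split double covers of small alternating groups (helper41)

A non-split double cover of `A_n`, `n ≤ 7`, has a unique involution; the spin double cover of
`A_8` has further involutions.
-/

set_option autoImplicit false
set_option linter.unusedSectionVars false
set_option linter.style.haveILetI false

namespace Cfsg.Agent.H41

open Cfsg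
open scoped commutatorElement

namespace DC

/-- Powers of an involution. -/
theorem mem_zpowers_of_sq {G : Type*} [Group G] {z g : G} (hz : z ^ 2 = 1)
    (hg : g ∈ Subgroup.zpowers z) : g = 1 ∨ g = z := by
  obtain ⟨k, rfl⟩ := Subgroup.mem_zpowers_iff.1 hg
  obtain ⟨j, hj | hj⟩ := Int.even_or_odd' k
  · left
    rw [hj, zpow_mul, zpow_ofNat, hz, one_zpow]
  · right
    rw [hj, zpow_add, zpow_mul, zpow_ofNat, hz, one_zpow, one_mul, zpow_one]

/-- Gaschütz for a central involution, via transfer: if the central involution `z` is not in the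
derived subgroup of a `2`-subgroup `P` of odd index, and the group is generated by `z` and
elements of odd order, then `⟨z⟩` has a complement. -/
theorem exists_complement_of_not_mem_commutator {H : Type*} [Group H] [Finite H] (z : H)
    (hz : z ∈ Subgroup.center H) (hz2 : z ^ 2 = 1) (P : Subgroup H) (hodd : Odd P.index)
    (hP : IsPGroup 2 P) (hzc : z ∉ ⁅P, P⁆) (S : Set H)
    (hS : ∀ s ∈ S, ∃ m, Odd m ∧ s ^ m = 1)
    (hgen : Subgroup.closure S ⊔ Subgroup.zpowers z = ⊤) :
    ∃ K : Subgroup H, (Subgroup.zpowers z).IsComplement' K := by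
  classical
  obtain ⟨ϕ, hϕ⟩ : ∃ ϕ : P →* Abelianization P, ϕ = Abelianization.of := ⟨_, rfl⟩
  have key : ∀ (k : ℕ) (g₀ : H), g₀⁻¹ * z ^ k * g₀ ∈ P → g₀⁻¹ * z ^ k * g₀ = z ^ k := by
    intro k g₀ _
    have hc : z ^ k ∈ Subgroup.center H := Subgroup.pow_mem _ hz k
    rw [Subgroup.mem_center_iff] at hc
    rw [mul_assoc, ← hc g₀, inv_mul_cancel_left]
  have h1 := MonoidHom.transfer_eq_pow ϕ z key
  have hzidx : z ^ P.index = z := by
    obtain ⟨k, hk⟩ := hodd
    rw [hk, pow_succ, pow_mul, hz2, one_pow, one_mul]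
  have hτz : MonoidHom.transfer ϕ z ≠ 1 := by
    rw [h1]
    intro h
    apply hzc
    have h3 : (⟨z ^ P.index, MonoidHom.transfer_eq_pow_aux z key⟩ : P) ∈ commutator P := by
      rw [← Abelianization.ker_of, ← hϕ]; exact h
    rw [← Subgroup.map_subtype_commutator]
    exact ⟨_, h3, hzidx⟩
  have h2grp : ∀ a : Abelianization P, ∃ k : ℕ, a ^ (2 ^ k) = 1 := by
    intro a
    obtain ⟨p, rfl⟩ := QuotientGroup.mk_surjective a
    obtain ⟨k, hk⟩ := hP p
    refine ⟨k, ?_⟩
    have : (Abelianization.of p) ^ (2 ^ k) = 1 := by rw [← map_pow, hk, map_one]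
    exact this
  have hτS : ∀ s ∈ S, MonoidHom.transfer ϕ s = 1 := by
    intro s hs
    obtain ⟨m, hm, hsm⟩ := hS s hs
    obtain ⟨k, hk⟩ := h2grp (MonoidHom.transfer ϕ s)
    have h3 : MonoidHom.transfer ϕ s ^ m = 1 := by rw [← map_pow, hsm, map_one]
    have h4 := pow_gcd_eq_one.2 ⟨hk, h3⟩
    have h5 : Nat.gcd (2 ^ k) m = 1 := Nat.Coprime.pow_left k (Nat.coprime_two_left.2 hm)
    rwa [h5, pow_one] at h4
  refine ⟨(MonoidHom.transfer ϕ).ker, ?_⟩
  apply Subgroup.isComplement'_of_disjoint_and_mul_eq_univ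
  · rw [Subgroup.disjoint_def]
    intro g hg1 hg2
    rcases mem_zpowers_of_sq hz2 hg1 with h | h
    · exact h
    · rw [h] at hg2
      exact absurd (MonoidHom.mem_ker.1 hg2) hτz
  · have hsup : Subgroup.zpowers z ⊔ (MonoidHom.transfer ϕ).ker = ⊤ := by
      rw [eq_top_iff, ← hgen]
      apply sup_le
      · rw [Subgroup.closure_le]
        intro s hs
        exact Subgroup.mem_sup_right (MonoidHom.mem_ker.2 (hτS s hs))
      · exact le_sup_left
    rw [← Subgroup.mul_normal, hsup, Subgroup.coe_top]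

/-- Central extensions of a dihedral-type group in which the generators lift to elements
`X, Y` with `Y² = (Y X)² = 1` and `X² = 1` (or `X⁴ = 1` and `(π X)² ≠ 1`): the kernel meets the
derived subgroup trivially. -/
theorem ker_inf_commutator_eq_bot_of_dihedral_lifts {K E : Type*} [Group K] [Group E]
    (π : E →* K) (hc : π.ker ≤ Subgroup.center E) (X Y : E)
    (hgen : Subgroup.closure {π X, π Y} = ⊤) (hY : Y ^ 2 = 1) (hYX : (Y * X) ^ 2 = 1)
    (hX : X ^ 2 = 1 ∨ ((X ^ 2) ^ 2 = 1 ∧ π X ^ 2 ≠ 1)) : π.ker ⊓ commutator E = ⊥ := by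
  have hYinv : Y⁻¹ = Y := by
    rw [inv_eq_iff_mul_eq_one, ← pow_two]; exact hY
  have hconj : Y * X * Y⁻¹ = X⁻¹ := by
    rw [hYinv, eq_inv_iff_mul_eq_one]
    rw [pow_two] at hYX
    rw [← hYX]; group
  have hX4 : (X ^ 2) ^ 2 = 1 := by
    rcases hX with h | h
    · rw [h, one_pow]
    · exact h.1
  have hXtop : Subgroup.closure {X, Y} ⊔ Subgroup.center E = ⊤ := by
    rw [eq_top_iff]
    intro γ _
    have hmap : Subgroup.map π (Subgroup.closure {X, Y}) = ⊤ := by
      rw [MonoidHom.map_closure, Set.image_pair, hgen]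
    have : π γ ∈ Subgroup.map π (Subgroup.closure {X, Y}) := by rw [hmap]; exact Subgroup.mem_top _
    obtain ⟨x, hx, hxγ⟩ := Subgroup.mem_map.1 this
    have hz : x⁻¹ * γ ∈ Subgroup.center E := by
      apply hc; rw [MonoidHom.mem_ker, map_mul, map_inv, hxγ, inv_mul_cancel]
    have : γ = x * (x⁻¹ * γ) := by group
    rw [this]
    exact Subgroup.mul_mem_sup hx hz
  have hmemC : ∀ g ∈ Subgroup.zpowers (X ^ 2), g = 1 ∨ g = X ^ 2 := fun g hg =>
    mem_zpowers_of_sq hX4 hg
  have hYX2 : Y * X ^ 2 * Y⁻¹ = X ^ 2 := by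
    rw [← conj_pow, hconj, inv_pow, inv_eq_iff_mul_eq_one, ← pow_two]; exact hX4
  have hnorm : (Subgroup.zpowers (X ^ 2)).Normal := by
    rw [← Subgroup.normalizer_eq_top_iff, eq_top_iff, ← hXtop]
    apply sup_le
    · rw [Subgroup.closure_le]
      have hfin : Finite ((Subgroup.zpowers (X ^ 2) : Subgroup E) : Set E) := by
        have : IsOfFinOrder (X ^ 2) := isOfFinOrder_iff_pow_eq_one.2 ⟨2, by norm_num, hX4⟩
        exact this.finite_zpowers
      intro x hx
      rcases hx with rfl | hx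
      · apply Subgroup.mem_normalizer_fintype
        intro y hy
        rcases hmemC y hy with rfl | rfl
        · rw [mul_one, mul_inv_cancel]; exact Subgroup.one_mem _
        · have : x * x ^ 2 * x⁻¹ = x ^ 2 := by group
          rw [this]; exact Subgroup.mem_zpowers _
      · rw [Set.mem_singleton_iff] at hx
        subst hx
        apply Subgroup.mem_normalizer_fintype
        intro y hy
        rcases hmemC y hy with rfl | rfl
        · rw [mul_one, mul_inv_cancel]; exact Subgroup.one_mem _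
        · rw [hYX2]; exact Subgroup.mem_zpowers _
    · exact Subgroup.center_le_normalizer _
  have hXY : ⁅X, Y⁆ = X ^ 2 := by
    have h1 : Y * X⁻¹ * Y⁻¹ = X := by
      have h0 : (Y * X * Y⁻¹)⁻¹ = X := by rw [hconj, inv_inv]
      calc Y * X⁻¹ * Y⁻¹ = (Y * X * Y⁻¹)⁻¹ := by group
        _ = X := h0
    rw [commutatorElement_def, mul_assoc, mul_assoc, ← mul_assoc Y, h1, pow_two]
  have hcomm : commutator E ≤ Subgroup.zpowers (X ^ 2) := by
    apply Meta.commutator_le_of_generators (Subgroup.zpowers (X ^ 2)) {X, Y} hXtop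
    intro x hx y hy
    rcases hx with rfl | hx <;> rcases hy with rfl | hy
    · rw [commutatorElement_self]; exact Subgroup.one_mem _
    · rw [Set.mem_singleton_iff] at hy
      subst hy
      rw [hXY]; exact Subgroup.mem_zpowers _
    · rw [Set.mem_singleton_iff] at hx
      subst hx
      rw [← commutatorElement_inv, hXY]
      exact Subgroup.inv_mem _ (Subgroup.mem_zpowers _)
    · rw [Set.mem_singleton_iff] at hx hy
      subst hx; subst hy
      rw [commutatorElement_self]; exact Subgroup.one_mem _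
  rw [eq_bot_iff]
  rintro g ⟨hg1, hg2⟩
  rw [Subgroup.mem_bot]
  rcases hmemC g (hcomm hg2) with h | h
  · exact h
  · rcases hX with h' | h'
    · rw [h, h']
    · exfalso
      apply h'.2
      rw [← map_pow, ← h]
      exact MonoidHom.mem_ker.1 hg1

/-- The subgroup form of `ker_inf_commutator_eq_bot_of_dihedral_lifts`. -/
theorem ker_inf_commutator_comap_eq_bot {H A : Type*} [Group H] [Group A] (ρ : H →* A)
    (hc : ρ.ker ≤ Subgroup.center H) (R U : H)
    (hU : U ^ 2 = 1) (hUR : (U * R) ^ 2 = 1)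
    (hR : R ^ 2 = 1 ∨ ((R ^ 2) ^ 2 = 1 ∧ ρ R ^ 2 ≠ 1)) :
    ρ.ker ⊓ ⁅(Subgroup.closure {ρ R, ρ U}).comap ρ, (Subgroup.closure {ρ R, ρ U}).comap ρ⁆ =
      ⊥ := by
  obtain ⟨Pb, hPb⟩ : ∃ Pb : Subgroup A, Pb = Subgroup.closure {ρ R, ρ U} := ⟨_, rfl⟩
  rw [← hPb]
  have hr : ρ R ∈ Pb := by rw [hPb]; exact Subgroup.subset_closure (by simp)
  have hu : ρ U ∈ Pb := by rw [hPb]; exact Subgroup.subset_closure (by simp)
  have hRm : R ∈ Pb.comap ρ := hr
  have hUm : U ∈ Pb.comap ρ := hu
  have hc' := subgroupComap_ker_le_center ρ hc Pb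
  have hgen : Subgroup.closure {(ρ.subgroupComap Pb) ⟨R, hRm⟩, (ρ.subgroupComap Pb) ⟨U, hUm⟩} =
      ⊤ := by
    subst hPb
    have h1 := Subgroup.closure_closure_coe_preimage (k := ({ρ R, ρ U} : Set A))
    have e : ((↑) : Subgroup.closure ({ρ R, ρ U} : Set A) → A) ⁻¹' {ρ R, ρ U} =
        {(ρ.subgroupComap (Subgroup.closure {ρ R, ρ U})) ⟨R, hRm⟩,
          (ρ.subgroupComap (Subgroup.closure {ρ R, ρ U})) ⟨U, hUm⟩} := by
      ext x
      constructor
      · intro hx
        rcases hx with h | h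
        · exact Or.inl (Subtype.ext h)
        · exact Or.inr (Subtype.ext h)
      · intro hx
        rcases hx with h | h
        · exact Or.inl (congrArg Subtype.val h)
        · exact Or.inr (congrArg Subtype.val h)
    rw [e] at h1
    exact h1
  have key := ker_inf_commutator_eq_bot_of_dihedral_lifts (ρ.subgroupComap Pb) hc'
    ⟨R, hRm⟩ ⟨U, hUm⟩ hgen (Subtype.ext hU) (Subtype.ext hUR) (by
      rcases hR with h | h
      · exact Or.inl (Subtype.ext h)
      · refine Or.inr ⟨Subtype.ext h.1, ?_⟩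
        intro h2
        apply h.2
        have := congrArg Subtype.val h2
        exact this)
  rw [eq_bot_iff]
  rintro z ⟨hz1, hz2⟩
  rw [← Subgroup.map_subtype_commutator] at hz2
  obtain ⟨z', hz', rfl⟩ := hz2
  have hmem : z' ∈ (ρ.subgroupComap Pb).ker ⊓ commutator (Pb.comap ρ) := by
    refine ⟨?_, hz'⟩
    show z' ∈ (ρ.subgroupComap Pb).ker
    rw [MonoidHom.mem_ker]
    apply Subtype.ext
    have : ρ (z' : H) = 1 := hz1
    exact this
  rw [key, Subgroup.mem_bot] at hmem
  rw [hmem]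
  exact Subgroup.one_mem _

/-! ### The alternating side -/

section Alt

open Equiv

variable {n : ℕ}

/-- Double transpositions in `A_n`. -/
def DT (σ : alternatingGroup (Fin n)) : Prop := (σ : Perm (Fin n)).cycleType = {2, 2}

theorem DT.sq {σ : alternatingGroup (Fin n)} (h : DT σ) : σ ^ 2 = 1 := by
  apply Subtype.ext
  have h1 := Equiv.Perm.lcm_cycleType (σ : Perm (Fin n))
  rw [h] at h1
  have h2 : orderOf (σ : Perm (Fin n)) = 2 := by rw [← h1]; rfl
  have h3 : (σ : Perm (Fin n)) ^ 2 = 1 := by rw [← h2, pow_orderOf_eq_one]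
  exact h3

theorem DT.ne_one {σ : alternatingGroup (Fin n)} (h : DT σ) : σ ≠ 1 := by
  intro h1
  have h2 : (σ : Perm (Fin n)).cycleType = 0 := by
    rw [h1]; exact Equiv.Perm.cycleType_one
  rw [h] at h2
  exact absurd h2 (by decide)

theorem dt_of_involution (hn : n ≤ 7) (σ : alternatingGroup (Fin n)) (h1 : σ ≠ 1)
    (h2 : σ ^ 2 = 1) : DT σ := by
  haveI : Fact (Nat.Prime 2) := ⟨Nat.prime_two⟩
  have ho : orderOf (σ : Perm (Fin n)) = 2 := by
    apply orderOf_eq_prime
    · exact congrArg Subtype.val h2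
    · intro h; exact h1 (Subtype.ext h)
  obtain ⟨k, hk⟩ := Equiv.Perm.cycleType_prime_order (σ := (σ : Perm (Fin n)))
    (by rw [ho]; exact Nat.prime_two)
  rw [ho] at hk
  have hsum := Equiv.Perm.sum_cycleType_le (σ : Perm (Fin n))
  rw [hk, Multiset.sum_replicate, Fintype.card_fin, smul_eq_mul] at hsum
  have hsign := Equiv.Perm.sign_of_cycleType (σ : Perm (Fin n))
  rw [Equiv.Perm.mem_alternatingGroup.1 σ.2, hk, Multiset.sum_replicate, Multiset.card_replicate,
    smul_eq_mul] at hsign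
  have hk2 : k ≤ 2 := by omega
  unfold DT
  rw [hk]
  interval_cases k
  · exfalso; revert hsign; decide
  · rfl
  · exfalso; revert hsign; decide

theorem dt_conj (a b c d : Fin n) (hnd : [a, b, c, d].Nodup) (σ : alternatingGroup (Fin n))
    (h : DT σ) : ∃ g : alternatingGroup (Fin n),
      ((g * σ * g⁻¹ : alternatingGroup (Fin n)) : Perm (Fin n)) = swap a b * swap c d := by
  have hct : (σ : Perm (Fin n)).cycleType = (swap a b * swap c d).cycleType := by
    rw [h]; exact (Equiv.Perm.cycleType_swap_mul_swap_of_nodup hnd).symm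
  obtain ⟨g, hg⟩ := isConj_iff.1 (Equiv.Perm.isConj_iff_cycleType_eq.2 hct)
  have hab : a ≠ b := by
    intro h'; subst h'; simp at hnd
  by_cases hs : Equiv.Perm.sign g = 1
  · exact ⟨⟨g, Equiv.Perm.mem_alternatingGroup.2 hs⟩, hg⟩
  · have hs' : Equiv.Perm.sign g = -1 := (Int.units_eq_one_or _).resolve_left hs
    refine ⟨⟨swap a b * g, Equiv.Perm.mem_alternatingGroup.2 (by
      rw [Equiv.Perm.sign_mul, Equiv.Perm.sign_swap hab, hs']; rfl)⟩, ?_⟩
    show swap a b * g * ↑σ * (swap a b * g)⁻¹ = _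
    have e : swap a b * g * ↑σ * (swap a b * g)⁻¹ =
        swap a b * (g * ↑σ * g⁻¹) * (swap a b)⁻¹ := by group
    have hcomm : swap c d * swap a b = swap a b * swap c d :=
      ((Equiv.Perm.disjoint_swap_swap hnd).commute).eq.symm
    rw [e, hg, Equiv.swap_inv, ← mul_assoc, Equiv.swap_mul_self, one_mul, hcomm]

theorem dt_conj2 (hn : 4 ≤ n) (σ τ : alternatingGroup (Fin n)) (hσ : DT σ) (hτ : DT τ) :
    ∃ g : alternatingGroup (Fin n), g * σ * g⁻¹ = τ := by
  have hnd : [(⟨0, by omega⟩ : Fin n), ⟨1, by omega⟩, ⟨2, by omega⟩, ⟨3, by omega⟩].Nodup := by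
    simp [Fin.ext_iff]
  obtain ⟨g1, h1⟩ := dt_conj _ _ _ _ hnd σ hσ
  obtain ⟨g2, h2⟩ := dt_conj _ _ _ _ hnd τ hτ
  have h3 : g1 * σ * g1⁻¹ = g2 * τ * g2⁻¹ := Subtype.ext (h1.trans h2.symm)
  refine ⟨g2⁻¹ * g1, ?_⟩
  have e : g2⁻¹ * g1 * σ * (g2⁻¹ * g1)⁻¹ = g2⁻¹ * (g1 * σ * g1⁻¹) * g2 := by group
  rw [e, h3]; group

theorem closure_cube_eq_top :
    Subgroup.closure {c : alternatingGroup (Fin n) | c ^ 3 = 1} = ⊤ := by
  rw [eq_top_iff]
  rintro ⟨g, hg⟩ -
  have key : ∀ σ (_ : σ ∈ Subgroup.closure {σ : Perm (Fin n) | σ.IsThreeCycle}),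
      ∃ h : σ ∈ alternatingGroup (Fin n), (⟨σ, h⟩ : alternatingGroup (Fin n)) ∈
        Subgroup.closure {c : alternatingGroup (Fin n) | c ^ 3 = 1} := by
    intro σ hσ
    induction hσ using Subgroup.closure_induction with
    | mem x hx =>
      refine ⟨Equiv.Perm.IsThreeCycle.mem_alternatingGroup hx, Subgroup.subset_closure ?_⟩
      show (⟨x, _⟩ : alternatingGroup (Fin n)) ^ 3 = 1
      apply Subtype.ext
      show x ^ 3 = 1
      rw [← Equiv.Perm.IsThreeCycle.orderOf hx, pow_orderOf_eq_one]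
    | one => exact ⟨Subgroup.one_mem _, Subgroup.one_mem _⟩
    | mul x y hx hy ihx ihy =>
      obtain ⟨h1, h2⟩ := ihx
      obtain ⟨h3, h4⟩ := ihy
      exact ⟨Subgroup.mul_mem _ h1 h3, Subgroup.mul_mem _ h2 h4⟩
    | inv x hx ihx =>
      obtain ⟨h1, h2⟩ := ihx
      exact ⟨Subgroup.inv_mem _ h1, Subgroup.inv_mem _ h2⟩
  have hg' : g ∈ Subgroup.closure {σ : Perm (Fin n) | σ.IsThreeCycle} := by
    rw [Equiv.Perm.closure_three_cycles_eq_alternating]; exact hg
  obtain ⟨_, h⟩ := key g hg'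
  exact h

end Alt

/-- A dihedral pair in a finite group: `⟨r, u⟩` is a `2`-group of odd index when `r` has order
`2^j` and `2^(j+2)` does not divide the group order. -/
theorem dihedral_closure {G : Type*} [Group G] [Finite G] (r u : G)
    (hconj : u * r * u⁻¹ = r⁻¹) (hu : u ^ 2 = 1) (j : ℕ) (hr : orderOf r = 2 ^ j)
    (hur : u ∉ Subgroup.zpowers r) (hG : ¬ 2 ^ (j + 2) ∣ Nat.card G) :
    IsPGroup 2 (Subgroup.closure {r, u}) ∧ ¬ 2 ∣ (Subgroup.closure {r, u}).index := by
  haveI : Fact (Nat.Prime 2) := ⟨Nat.prime_two⟩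
  have hA : IsPGroup 2 (Subgroup.zpowers r) :=
    IsPGroup.of_card (n := j) (by rw [Nat.card_zpowers, hr])
  have hB : IsPGroup 2 (Subgroup.zpowers u) := by
    have hb : orderOf u ∣ 2 := orderOf_dvd_of_pow_eq_one hu
    have hcard : Nat.card (Subgroup.zpowers u) ∣ 2 ^ 1 := by rw [Nat.card_zpowers]; simpa using hb
    obtain ⟨k, -, hk⟩ := (Nat.dvd_prime_pow Nat.prime_two).1 hcard
    exact IsPGroup.of_card hk
  have hnorm : Subgroup.zpowers u ≤ Subgroup.normalizer (Subgroup.zpowers r : Set G) := by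
    rw [Subgroup.zpowers_le]
    apply Subgroup.mem_normalizer_fintype
    intro x hx
    obtain ⟨k, rfl⟩ := Subgroup.mem_zpowers_iff.1 hx
    rw [← conj_zpow, hconj]
    exact Subgroup.zpow_mem _ (Subgroup.inv_mem _ (Subgroup.mem_zpowers r)) k
  have hBA := IsPGroup.to_sup_of_normal_right' hB hA hnorm
  have hP : IsPGroup 2 (Subgroup.closure {r, u}) := by
    apply hBA.to_le
    rw [Subgroup.closure_le]
    rintro x (rfl | rfl)
    · exact Subgroup.mem_sup_right (Subgroup.mem_zpowers _)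
    · exact Subgroup.mem_sup_left (Subgroup.mem_zpowers _)
  refine ⟨hP, ?_⟩
  have hle : Subgroup.zpowers r ≤ Subgroup.closure {r, u} := by
    rw [Subgroup.zpowers_le]; exact Subgroup.subset_closure (by simp)
  have hne : Subgroup.zpowers r ≠ Subgroup.closure {r, u} := by
    intro h1; apply hur; rw [h1]; exact Subgroup.subset_closure (by simp)
  have h1 := pow_succ_dvd_card_of_ne hP hle hne j (by rw [Nat.card_zpowers, hr])
  exact not_dvd_index_of_pow_dvd_card _ 2 (j + 1) h1 hG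

section Alt2

open Equiv

variable {n : ℕ}

/-- The `2`-local data used for `A_n`. -/
def GoodPair (r u : alternatingGroup (Fin n)) : Prop :=
  u * r * u⁻¹ = r⁻¹ ∧ DT u ∧ DT (u * r) ∧ (DT r ∨ DT (r ^ 2)) ∧
    ¬ 2 ∣ (Subgroup.closure {r, u}).index ∧ IsPGroup 2 (Subgroup.closure {r, u})

theorem goodPair_of {r u : alternatingGroup (Fin n)} (hconj : u * r * u⁻¹ = r⁻¹) (hu : DT u)
    (hur : DT (u * r))
    (hr : (DT r ∧ ¬ 2 ^ 3 ∣ Nat.card (alternatingGroup (Fin n))) ∨
      (DT (r ^ 2) ∧ ¬ 2 ^ 4 ∣ Nat.card (alternatingGroup (Fin n)))) : GoodPair r u := by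
  haveI : Fact (Nat.Prime 2) := ⟨Nat.prime_two⟩
  have hcomm_of_mem : u ∈ Subgroup.zpowers r → r ^ 2 = 1 := by
    intro hmem
    obtain ⟨k, hk⟩ := Subgroup.mem_zpowers_iff.1 hmem
    have h1 : u * r = r * u := by
      rw [← hk, ← zpow_add_one, ← zpow_one_add, add_comm]
    have h2 : u * r * u⁻¹ = r := by rw [h1, mul_inv_cancel_right]
    rw [hconj] at h2
    rw [pow_two]
    nth_rewrite 1 [← h2]
    exact inv_mul_cancel r
  rcases hr with ⟨hr, hcard⟩ | ⟨hr, hcard⟩
  · have hr2 : r ^ 2 = 1 := hr.sq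
    have ho : orderOf r = 2 ^ 1 := by
      rw [pow_one]; exact orderOf_eq_prime hr2 hr.ne_one
    have hnot : u ∉ Subgroup.zpowers r := by
      intro hmem
      rcases mem_zpowers_of_sq hr2 hmem with h | h
      · exact hu.ne_one h
      · apply hur.ne_one
        rw [h, ← pow_two, hr2]
    obtain ⟨h1, h2⟩ := dihedral_closure r u hconj hu.sq 1 ho hnot hcard
    exact ⟨hconj, hu, hur, Or.inl hr, h2, h1⟩
  · have hr4 : r ^ 2 ^ (1 + 1) = 1 := by
      have := hr.sq
      rw [← pow_mul] at this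
      exact this
    have hr2 : ¬ r ^ 2 ^ 1 = 1 := by
      rw [pow_one]; exact hr.ne_one
    have ho : orderOf r = 2 ^ 2 := orderOf_eq_prime_pow hr2 hr4
    have hnot : u ∉ Subgroup.zpowers r := fun hmem => hr.ne_one (hcomm_of_mem hmem)
    obtain ⟨h1, h2⟩ := dihedral_closure r u hconj hu.sq 2 ho hnot hcard
    exact ⟨hconj, hu, hur, Or.inr hr, h2, h1⟩

theorem card_alt (hn : 2 ≤ n) : 2 * Nat.card (alternatingGroup (Fin n)) = n.factorial := by
  haveI : Nontrivial (Fin n) := Fin.nontrivial_iff_two_le.2 hn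
  have h := two_mul_card_alternatingGroup (α := Fin n)
  rw [Fintype.card_perm, Fintype.card_fin] at h
  rw [Nat.card_eq_fintype_card]
  exact h

/-- Packaging of the explicit data. -/
theorem goodPair_mk (rP uP : Perm (Fin n)) (hrm : rP ∈ alternatingGroup (Fin n))
    (hum : uP ∈ alternatingGroup (Fin n)) (h1 : uP * rP * uP⁻¹ = rP⁻¹)
    (a b c d : Fin n) (hu : uP = swap a b * swap c d) (hnd : [a, b, c, d].Nodup)
    (a' b' c' d' : Fin n) (hur : uP * rP = swap a' b' * swap c' d') (hnd' : [a', b', c', d'].Nodup)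
    (a'' b'' c'' d'' : Fin n) (hnd'' : [a'', b'', c'', d''].Nodup)
    (hr : (rP = swap a'' b'' * swap c'' d'' ∧ ¬ 2 ^ 3 ∣ Nat.card (alternatingGroup (Fin n))) ∨
      (rP ^ 2 = swap a'' b'' * swap c'' d'' ∧ ¬ 2 ^ 4 ∣ Nat.card (alternatingGroup (Fin n)))) :
    ∃ r u : alternatingGroup (Fin n), GoodPair r u := by
  refine ⟨⟨rP, hrm⟩, ⟨uP, hum⟩, goodPair_of (Subtype.ext h1) ?_ ?_ ?_⟩
  · show uP.cycleType = {2, 2}
    rw [hu]; exact Equiv.Perm.cycleType_swap_mul_swap_of_nodup hnd
  · show (uP * rP).cycleType = {2, 2}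
    rw [hur]; exact Equiv.Perm.cycleType_swap_mul_swap_of_nodup hnd'
  · rcases hr with ⟨h, hc⟩ | ⟨h, hc⟩
    · left
      refine ⟨?_, hc⟩
      show rP.cycleType = {2, 2}
      rw [h]; exact Equiv.Perm.cycleType_swap_mul_swap_of_nodup hnd''
    · right
      refine ⟨?_, hc⟩
      show (rP ^ 2).cycleType = {2, 2}
      rw [h]; exact Equiv.Perm.cycleType_swap_mul_swap_of_nodup hnd''

theorem exists_goodPair (h4 : 4 ≤ n) (h7 : n ≤ 7) :
    ∃ r u : alternatingGroup (Fin n), GoodPair r u := by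
  have hc := card_alt (n := n) (by omega)
  interval_cases n
  · refine goodPair_mk (swap 0 1 * swap 2 3) (swap 0 2 * swap 1 3)
      (Spin.swap_mul_swap_mem _ _ _ _ (by decide) (by decide))
      (Spin.swap_mul_swap_mem _ _ _ _ (by decide) (by decide)) (by decide)
      0 2 1 3 rfl (by decide) 0 3 1 2 (by decide) (by decide) 0 1 2 3 (by decide)
      (Or.inl ⟨rfl, ?_⟩)
    have h : Nat.card (alternatingGroup (Fin 4)) = 12 := by
      have : Nat.factorial 4 = 24 := rfl
      omega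
    rw [h]; norm_num
  · refine goodPair_mk (swap 0 1 * swap 2 3) (swap 0 2 * swap 1 3)
      (Spin.swap_mul_swap_mem _ _ _ _ (by decide) (by decide))
      (Spin.swap_mul_swap_mem _ _ _ _ (by decide) (by decide)) (by decide)
      0 2 1 3 rfl (by decide) 0 3 1 2 (by decide) (by decide) 0 1 2 3 (by decide)
      (Or.inl ⟨rfl, ?_⟩)
    have h : Nat.card (alternatingGroup (Fin 5)) = 60 := by
      have : Nat.factorial 5 = 120 := rfl
      omega
    rw [h]; norm_num
  · refine goodPair_mk ((swap 0 1 * swap 1 2) * (swap 2 3 * swap 4 5)) (swap 0 2 * swap 4 5)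
      (Subgroup.mul_mem _ (Spin.swap_mul_swap_mem _ _ _ _ (by decide) (by decide))
        (Spin.swap_mul_swap_mem _ _ _ _ (by decide) (by decide)))
      (Spin.swap_mul_swap_mem _ _ _ _ (by decide) (by decide)) (by decide)
      0 2 4 5 rfl (by decide) 0 1 2 3 (by decide) (by decide) 0 2 1 3 (by decide)
      (Or.inr ⟨by decide, ?_⟩)
    have h : Nat.card (alternatingGroup (Fin 6)) = 360 := by
      have : Nat.factorial 6 = 720 := rfl
      omega
    rw [h]; norm_num
  · refine goodPair_mk ((swap 0 1 * swap 1 2) * (swap 2 3 * swap 4 5)) (swap 0 2 * swap 4 5)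
      (Subgroup.mul_mem _ (Spin.swap_mul_swap_mem _ _ _ _ (by decide) (by decide))
        (Spin.swap_mul_swap_mem _ _ _ _ (by decide) (by decide)))
      (Spin.swap_mul_swap_mem _ _ _ _ (by decide) (by decide)) (by decide)
      0 2 4 5 rfl (by decide) 0 1 2 3 (by decide) (by decide) 0 2 1 3 (by decide)
      (Or.inr ⟨by decide, ?_⟩)
    have h : Nat.card (alternatingGroup (Fin 7)) = 2520 := by
      have : Nat.factorial 7 = 5040 := rfl
      omega
    rw [h]; norm_num

end Alt2

/-! ### The main theorem for `n ≤ 7` -/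

section Main

open Equiv

theorem isCyclic_alt_of_le_three {n : ℕ} (hn : n ≤ 3) : IsCyclic (alternatingGroup (Fin n)) := by
  by_cases h2 : 2 ≤ n
  · have hc := card_alt (n := n) h2
    interval_cases n
    · have h : Nat.card (alternatingGroup (Fin 2)) = 1 := by
        have : Nat.factorial 2 = 2 := rfl
        omega
      haveI : Subsingleton (alternatingGroup (Fin 2)) := (Nat.card_eq_one_iff_unique.1 h).1
      exact isCyclic_of_subsingleton
    · have h : Nat.card (alternatingGroup (Fin 3)) = 3 := by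
        have : Nat.factorial 3 = 6 := rfl
        omega
      haveI : Fact (Nat.Prime 3) := ⟨Nat.prime_three⟩
      exact isCyclic_of_prime_card h
  · haveI : Subsingleton (Fin n) := by
      rw [Fin.subsingleton_iff_le_one]; omega
    exact isCyclic_of_subsingleton

/-- In a non-split double cover of `A_n`, `n ≤ 7`, every involution is central. -/
theorem involution_mem_center {n : ℕ} (hn : n ≤ 7) {H : Type*} [Group H] [Finite H]
    (hH : IsNonsplitDoubleCover H (alternatingGroup (Fin n))) (x : H) (hx : orderOf x = 2) :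
    x ∈ Subgroup.center H := by
  obtain ⟨hcard, ⟨e⟩, hns⟩ := hH
  by_contra hxZ
  obtain ⟨ρ, hρdef⟩ : ∃ ρ : H →* alternatingGroup (Fin n),
      ρ = e.toMonoidHom.comp (QuotientGroup.mk' (Subgroup.center H)) := ⟨_, rfl⟩
  have hρs : Function.Surjective ρ := by
    rw [hρdef]; exact e.surjective.comp (QuotientGroup.mk'_surjective _)
  have hρk : ρ.ker = Subgroup.center H := by
    rw [hρdef]
    ext g
    rw [MonoidHom.mem_ker, MonoidHom.comp_apply]
    show e (QuotientGroup.mk' _ g) = 1 ↔ _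
    rw [map_eq_one_iff e e.injective, QuotientGroup.mk'_apply, QuotientGroup.eq_one_iff]
  by_cases h4 : 4 ≤ n
  swap
  · apply hxZ
    haveI : IsCyclic (alternatingGroup (Fin n)) := isCyclic_alt_of_le_three (by omega)
    have hcomm := MonoidHom.isMulCommutative_of_isCyclic_of_ker_le_center ρ (le_of_eq hρk)
    rw [Subgroup.mem_center_iff]
    intro g
    exact hcomm.is_comm.comm g x
  have hZ2 : ∀ ζ ∈ Subgroup.center H, ζ ^ 2 = 1 := by
    intro ζ hζ
    have := pow_card_eq_one' (G := Subgroup.center H) (x := ⟨ζ, hζ⟩)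
    rw [hcard] at this
    exact congrArg Subtype.val this
  obtain ⟨z, hzZ, hz1⟩ : ∃ z ∈ Subgroup.center H, z ≠ 1 := by
    by_contra hno
    push Not at hno
    have : Subgroup.center H = ⊥ := by
      rw [eq_bot_iff]; intro g hg; exact Subgroup.mem_bot.2 (hno g hg)
    rw [this, Subgroup.card_bot] at hcard
    omega
  have hz2 : z ^ 2 = 1 := hZ2 z hzZ
  have hzp : Subgroup.zpowers z = Subgroup.center H := by
    haveI : Fact (Nat.Prime 2) := ⟨Nat.prime_two⟩
    apply Subgroup.eq_of_le_of_card_ge (Subgroup.zpowers_le.2 hzZ)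
    rw [hcard, Nat.card_zpowers, orderOf_eq_prime hz2 hz1]
  have hx2 : x ^ 2 = 1 := by rw [← hx, pow_orderOf_eq_one]
  have hρx : DT (ρ x) := by
    apply dt_of_involution hn
    · intro h
      apply hxZ
      rw [← hρk]; exact MonoidHom.mem_ker.2 h
    · rw [← map_pow, hx2, map_one]
  have hB : ∀ w : H, DT (ρ w) → w ^ 2 = 1 := by
    intro w hw
    obtain ⟨g, hg⟩ := dt_conj2 h4 (ρ x) (ρ w) hρx hw
    obtain ⟨G, rfl⟩ := hρs g
    have hζ : w⁻¹ * (G * x * G⁻¹) ∈ Subgroup.center H := by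
      rw [← hρk, MonoidHom.mem_ker, map_mul, map_inv, map_mul, map_mul, map_inv, hg,
        inv_mul_cancel]
    have hζ2 := hZ2 _ hζ
    have hc := Subgroup.mem_center_iff.1 hζ
    have e1 : G * x * G⁻¹ = w * (w⁻¹ * (G * x * G⁻¹)) := by group
    have e2 : (G * x * G⁻¹) ^ 2 = 1 := by rw [conj_pow, hx2]; group
    rw [e1] at e2
    have hcm : Commute w (w⁻¹ * (G * x * G⁻¹)) := hc w
    rw [hcm.mul_pow, hζ2, mul_one] at e2
    exact e2
  obtain ⟨r, u, hconj, hu, hur, hr, hidx, hPg⟩ := exists_goodPair h4 hn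
  obtain ⟨R, rfl⟩ := hρs r
  obtain ⟨U, rfl⟩ := hρs u
  have hU2 : U ^ 2 = 1 := hB U hu
  have hUR2 : (U * R) ^ 2 = 1 := hB (U * R) (by rw [map_mul]; exact hur)
  have hR : R ^ 2 = 1 ∨ ((R ^ 2) ^ 2 = 1 ∧ ρ R ^ 2 ≠ 1) := by
    rcases hr with h | h
    · exact Or.inl (hB R h)
    · exact Or.inr ⟨hB (R ^ 2) (by rw [map_pow]; exact h), h.ne_one⟩
  have hc : ρ.ker ≤ Subgroup.center H := le_of_eq hρk
  have hkey := ker_inf_commutator_comap_eq_bot ρ hc R U hU2 hUR2 hR
  obtain ⟨P, hPdef⟩ : ∃ P : Subgroup H, P = (Subgroup.closure {ρ R, ρ U}).comap ρ := ⟨_, rfl⟩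
  rw [← hPdef] at hkey
  have hzc : z ∉ ⁅P, P⁆ := by
    intro h
    have : z ∈ ρ.ker ⊓ ⁅P, P⁆ := ⟨by rw [hρk]; exact hzZ, h⟩
    rw [hkey, Subgroup.mem_bot] at this
    exact hz1 this
  have hPodd : Odd P.index := by
    rw [hPdef, Subgroup.index_comap_of_surjective _ hρs]
    exact Nat.not_even_iff_odd.1 (fun h => hidx (even_iff_two_dvd.1 h))
  have hP2 : IsPGroup 2 P := by
    rintro ⟨g, hg⟩
    rw [hPdef] at hg
    obtain ⟨k, hk⟩ := hPg ⟨ρ g, hg⟩
    have h1 : ρ (g ^ 2 ^ k) = 1 := by rw [map_pow]; exact congrArg Subtype.val hk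
    have h2 : g ^ 2 ^ k ∈ Subgroup.center H := by rw [← hρk]; exact MonoidHom.mem_ker.2 h1
    refine ⟨k + 1, Subtype.ext ?_⟩
    show g ^ 2 ^ (k + 1) = 1
    rw [pow_succ, pow_mul]; exact hZ2 _ h2
  obtain ⟨S, hSdef⟩ : ∃ S : Set H, S = {g : H | g ^ 3 = 1} := ⟨_, rfl⟩
  have hS : ∀ s ∈ S, ∃ m, Odd m ∧ s ^ m = 1 := by
    intro s hs; rw [hSdef] at hs; exact ⟨3, by decide, hs⟩
  have hgen : Subgroup.closure S ⊔ Subgroup.zpowers z = ⊤ := by
    have hmap : Subgroup.map ρ (Subgroup.closure S) = ⊤ := by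
      rw [eq_top_iff, ← closure_cube_eq_top, MonoidHom.map_closure]
      apply Subgroup.closure_mono
      intro c hc3
      obtain ⟨g, rfl⟩ := hρs c
      refine ⟨g ^ 4, ?_, ?_⟩
      · rw [hSdef]
        show (g ^ 4) ^ 3 = 1
        have h1 : g ^ 3 ∈ Subgroup.center H := by
          rw [← hρk, MonoidHom.mem_ker, map_pow]; exact hc3
        have h2 := hZ2 _ h1
        rw [← pow_mul, show 4 * 3 = 3 * 2 * 2 by norm_num, pow_mul, pow_mul, h2, one_pow]
      · have hc3' : ρ g ^ 3 = 1 := hc3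
        rw [map_pow, show 4 = 3 + 1 by norm_num, pow_succ, hc3', one_mul]
    rw [eq_top_iff]
    intro h _
    have : ρ h ∈ Subgroup.map ρ (Subgroup.closure S) := by rw [hmap]; exact Subgroup.mem_top _
    obtain ⟨w, hw, hwh⟩ := Subgroup.mem_map.1 this
    have hz' : w⁻¹ * h ∈ Subgroup.zpowers z := by
      rw [hzp, ← hρk, MonoidHom.mem_ker, map_mul, map_inv, hwh, inv_mul_cancel]
    have e : h = w * (w⁻¹ * h) := by group
    rw [e]
    exact Subgroup.mul_mem_sup hw hz'
  obtain ⟨K, hK⟩ := exists_complement_of_not_mem_commutator z hzZ hz2 P hPodd hP2 hzc S hS hgen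
  rw [hzp] at hK
  exact hns K hK

theorem unique_involution {n : ℕ} (hn : n ≤ 7) {H : Type*} [Group H] [Finite H]
    (hH : IsNonsplitDoubleCover H (alternatingGroup (Fin n))) (x y : H) (hx : orderOf x = 2)
    (hy : orderOf y = 2) : x = y := by
  have hxZ := involution_mem_center hn hH x hx
  have hyZ := involution_mem_center hn hH y hy
  have hcard := hH.1
  have hy1 : y ≠ 1 := by
    intro h; rw [h, orderOf_one] at hy; omega
  have h1 : Subgroup.zpowers x = Subgroup.center H :=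
    Subgroup.eq_of_le_of_card_ge (Subgroup.zpowers_le.2 hxZ)
      (by rw [hcard, Nat.card_zpowers, hx])
  have h2 : y ∈ Subgroup.zpowers x := by rw [h1]; exact hyZ
  have hx2 : x ^ 2 = 1 := by rw [← hx, pow_orderOf_eq_one]
  rcases mem_zpowers_of_sq hx2 h2 with h | h
  · exact absurd h hy1
  · exact h.symm

end Main

/-! ### The double cover of `A_8` -/

section Spin8

open Spin

theorem abs_comm2 {A : Type*} [Ring A] (a b c d : A) (hac : a * c = -(c * a))
    (had : a * d = -(d * a)) (hbc : b * c = -(c * b)) (hbd : b * d = -(d * b)) :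
    (a * b) * (c * d) = (c * d) * (a * b) := by
  calc a * b * (c * d) = a * (b * c) * d := by noncomm_ring
    _ = a * (-(c * b)) * d := by rw [hbc]
    _ = -((a * c) * (b * d)) := by noncomm_ring
    _ = -((-(c * a)) * (-(d * b))) := by rw [hac, hbd]
    _ = -(c * (a * d) * b) := by noncomm_ring
    _ = -(c * (-(d * a)) * b) := by rw [had]
    _ = c * d * (a * b) := by noncomm_ring

theorem abs_sq2 {A : Type*} [Ring A] (a b : A) (ha : a * a = -1) (hb : b * b = -1)
    (hab : a * b = -(b * a)) : (a * b) * (a * b) = -1 := by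
  have hba : b * a = -(a * b) := by rw [hab, neg_neg]
  calc a * b * (a * b) = a * (b * a) * b := by noncomm_ring
    _ = a * (-(a * b)) * b := by rw [hba]
    _ = -((a * a) * (b * b)) := by noncomm_ring
    _ = -1 := by rw [ha, hb]; noncomm_ring

theorem abs_four {A : Type*} [Ring A] (a b c d : A) (ha : a * a = -1) (hb : b * b = -1)
    (hc : c * c = -1) (hd : d * d = -1) (hab : a * b = -(b * a)) (hcd : c * d = -(d * c))
    (hac : a * c = -(c * a)) (had : a * d = -(d * a)) (hbc : b * c = -(c * b))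
    (hbd : b * d = -(d * b)) : (a * b * (c * d)) * (a * b * (c * d)) = 1 := by
  have h1 := abs_comm2 a b c d hac had hbc hbd
  calc a * b * (c * d) * (a * b * (c * d)) = a * b * ((c * d) * (a * b)) * (c * d) := by
        noncomm_ring
    _ = a * b * ((a * b) * (c * d)) * (c * d) := by rw [h1]
    _ = (a * b * (a * b)) * ((c * d) * (c * d)) := by noncomm_ring
    _ = 1 := by rw [abs_sq2 a b ha hb hab, abs_sq2 c d hc hd hcd]; noncomm_ring

/-- A non-central involution of the double cover of `A_8`. -/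
noncomputable def xEl : GamSub 8 :=
  ⟨_, pair_mem (0 : Fin 8) 1 2 3 (by decide) (by decide)⟩ *
    ⟨_, pair_mem (4 : Fin 8) 5 6 7 (by decide) (by decide)⟩

theorem xEl_sq : xEl * xEl = 1 := by
  apply Subtype.ext
  apply Prod.ext
  · apply Units.ext
    show (v (0 : Fin 8) 1 * v 2 3 * (v 4 5 * v 6 7)) * (v (0 : Fin 8) 1 * v 2 3 * (v 4 5 * v 6 7))
      = 1
    exact abs_four (v (0 : Fin 8) 1) (v 2 3) (v 4 5) (v 6 7)
      (v_mul_self _ _ (by decide)) (v_mul_self _ _ (by decide)) (v_mul_self _ _ (by decide))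
      (v_mul_self _ _ (by decide))
      (v_anticomm _ _ _ _ (by decide) (by decide) (by decide) (by decide))
      (v_anticomm _ _ _ _ (by decide) (by decide) (by decide) (by decide))
      (v_anticomm _ _ _ _ (by decide) (by decide) (by decide) (by decide))
      (v_anticomm _ _ _ _ (by decide) (by decide) (by decide) (by decide))
      (v_anticomm _ _ _ _ (by decide) (by decide) (by decide) (by decide))
      (v_anticomm _ _ _ _ (by decide) (by decide) (by decide) (by decide))
  · apply Subtype.ext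
    show (Equiv.swap (0 : Fin 8) 1 * Equiv.swap 2 3 * (Equiv.swap 4 5 * Equiv.swap 6 7)) *
      (Equiv.swap (0 : Fin 8) 1 * Equiv.swap 2 3 * (Equiv.swap 4 5 * Equiv.swap 6 7)) = 1
    decide

theorem xEl_snd_ne : (xEl : GamSub 8).1.2 ≠ 1 := by
  intro h
  have h1 : (Equiv.swap (0 : Fin 8) 1 * Equiv.swap 2 3 * (Equiv.swap 4 5 * Equiv.swap 6 7)) = 1 :=
    congrArg Subtype.val h
  revert h1
  decide

theorem center_eq : Subgroup.center (GamSub 8) = Subgroup.zpowers (zEl : GamSub 8) := by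
  apply le_antisymm
  · intro c hc
    rw [← ker_proj, MonoidHom.mem_ker]
    have h1 : proj 8 c ∈ Subgroup.center (alternatingGroup (Fin 8)) := by
      rw [Subgroup.mem_center_iff]
      intro a
      obtain ⟨g, rfl⟩ := proj_surjective (n := 8) a
      rw [← map_mul, ← map_mul, Subgroup.mem_center_iff.1 hc g]
    rw [alternatingGroup.center_eq_bot
      (by rw [Nat.card_eq_fintype_card, Fintype.card_fin]; norm_num)] at h1
    exact Subgroup.mem_bot.1 h1
  · rw [Subgroup.zpowers_le]; exact zEl_mem_center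

theorem not_isComplement'_of_mem_commutator {G : Type*} [Group G] (Z L : Subgroup G)
    (hZ : Z ≤ Subgroup.center G) (z : G) (hzZ : z ∈ Z) (hz1 : z ≠ 1) (hzc : z ∈ commutator G) :
    ¬ Z.IsComplement' L := by
  intro hcomp
  have hle : commutator G ≤ L := by
    rw [commutator_def, Subgroup.commutator_le]
    intro g1 _ g2 _
    obtain ⟨⟨a1, l1⟩, rfl⟩ := hcomp.2 g1
    obtain ⟨⟨a2, l2⟩, rfl⟩ := hcomp.2 g2
    show ⁅(a1 : G) * l1, (a2 : G) * l2⁆ ∈ L
    rw [← Subgroup.mem_center_iff.1 (hZ a1.2) l1, ← Subgroup.mem_center_iff.1 (hZ a2.2) l2,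
      commutatorElement_mul_center (hZ a1.2) (hZ a2.2), commutatorElement_def]
    exact L.mul_mem (L.mul_mem (L.mul_mem l1.2 l2.2) (L.inv_mem l1.2)) (L.inv_mem l2.2)
  exact hz1 (Subgroup.disjoint_def.1 hcomp.disjoint hzZ (hle hzc))

theorem exists_nonsplit_A8 : ∃ (H : Type) (_ : Group H) (_ : Finite H),
    IsNonsplitDoubleCover H (alternatingGroup (Fin 8)) ∧
      ∃ x y : H, x ≠ y ∧ orderOf x = 2 ∧ orderOf y = 2 := by
  haveI : Fact (Nat.Prime 2) := ⟨Nat.prime_two⟩
  have hx1 : (xEl : GamSub 8) ≠ 1 := by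
    intro h
    apply xEl_snd_ne
    rw [h]; rfl
  refine ⟨GamSub 8, inferInstance, inferInstance, ⟨?_, ?_, ?_⟩, xEl, zEl, ?_, ?_, orderOf_zEl⟩
  · rw [center_eq, Nat.card_zpowers, orderOf_zEl]
  · exact ⟨(QuotientGroup.quotientMulEquivOfEq (center_eq.trans ker_proj.symm)).trans
      (QuotientGroup.quotientKerEquivOfSurjective (proj 8) proj_surjective)⟩
  · intro L
    exact not_isComplement'_of_mem_commutator _ L le_rfl zEl zEl_mem_center zEl_ne_one
      (zEl_mem_commutator (by norm_num))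
  · intro h
    apply xEl_snd_ne
    rw [h]; rfl
  · exact orderOf_eq_prime (by rw [pow_two]; exact xEl_sq) hx1

end Spin8

end DC

end Cfsg.Agent.H41
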