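import Mathlib

/-!
# A computable field with eight elements (helper41)

`F8 = 𝔽₂[ζ]/(ζ³ + ζ + 1)`; the element `b₀ + b₁ ζ + b₂ ζ²` is stored as the number
`b₀ + 2 b₁ + 4 b₂`.  Addition is `xor`, multiplication and inversion are table look-ups.
-/

set_option autoImplicit false

namespace Cfsg.Agent.H41

/-- the field with eight elements -/
structure F8 : Type where
  /-- the bit pattern -/
  v : Fin 8
  deriving DecidableEq

namespace F8

instance : Fintype F8 := Fintype.ofEquiv (Fin 8) ⟨F8.mk, F8.v, fun _ => rfl, fun _ => rfl⟩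

/-- the element with a given bit pattern -/
def ofNat (n : ℕ) : F8 := ⟨⟨n % 8, Nat.mod_lt _ (by norm_num)⟩⟩

/-- addition -/
def add (x y : F8) : F8 := ofNat (Nat.xor x.v.val y.v.val)

/-- multiplication -/
def mul (x y : F8) : F8 :=
  ofNat (0x73157889d3f0cfa868356ee0467b98bcbd10fac688000000 >>> (3 * (8 * x.v.val + y.v.val)))

/-- inverse -/
def inv (x : F8) : F8 := ofNat (0x8d7d48 >>> (3 * x.v.val))

instance : Add F8 := ⟨add⟩
instance : Mul F8 := ⟨mul⟩
instance : Zero F8 := ⟨ofNat 0⟩
instance : One F8 := ⟨ofNat 1⟩
instance : Neg F8 := ⟨id⟩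
instance : Inv F8 := ⟨inv⟩

instance : Field F8 where
  add_assoc := by decide
  zero_add := by decide
  add_zero := by decide
  nsmul := nsmulRec
  zsmul := zsmulRec
  neg_add_cancel := by decide
  add_comm := by decide
  left_distrib := by decide
  right_distrib := by decide
  zero_mul := by decide
  mul_zero := by decide
  mul_assoc := by decide
  one_mul := by decide
  mul_one := by decide
  mul_comm := by decide
  exists_pair_ne := ⟨0, 1, by decide⟩
  mul_inv_cancel := by decide
  inv_zero := by decide
  nnqsmul := _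
  qsmul := _

theorem card_eq : Fintype.card F8 = 8 := rfl

end F8

end Cfsg.Agent.H41
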